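import Mathlib
import Cfsg.Agent.L33.Defs

/-!
The global facts used by the climbing procedure.
-/

set_option autoImplicit false

namespace Cfsg.Agent.L33

open Cfsg.Agent.Rec Cfsg.Agent.Inv.Fz Subgroup

variable {G : Type*} [Group G]

/-- Bounds for the `2`-subgroups centralising a conjugate of `t`. -/
structure Glob (s : ℕ) (t : G) : Prop where
  t2 : t * t = 1
  t1 : t ≠ 1
  o1 : ∀ x, IsConj t x → ∀ D : Subgroup G, IsPGroup 2 D → D ≤ centralizer {x} → Nat.card D ≤ 2 ^ s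
  o3 : s = 6 → ∀ x, IsConj t x → ∀ F D : Subgroup G, x ∈ F → (∀ y ∈ F, y * y = 1) → Nat.card F = 16 →
    IsPGroup 2 D → D ≤ centralizer {x} → D ≤ normalizer (F : Set G) → Nat.card D ≤ 32

/-- The common normaliser of a list of subgroups. -/
def KN (Xs : List (Subgroup G)) : Subgroup G where
  carrier := {g | ∀ X ∈ Xs, g ∈ normalizer (X : Set G)}
  one_mem' _ _ := one_mem _
  mul_mem' ha hb X hX := mul_mem (ha X hX) (hb X hX)
  inv_mem' ha X hX := inv_mem (ha X hX)

theorem mem_KN {Xs : List (Subgroup G)} {g : G} : g ∈ KN Xs ↔ ∀ X ∈ Xs, g ∈ normalizer (X : Set G) := Iff.rfl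

/-- `g` and `s` induce the same maps on the sections `X / Z`. -/
def Agr (Ps : List (Subgroup G × Subgroup G)) (g s : G) : Prop :=
  ∀ p ∈ Ps, ∀ x ∈ p.1, g * x * g⁻¹ * (s * x * s⁻¹)⁻¹ ∈ p.2

end Cfsg.Agent.L33
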