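import Mathlib
import Cfsg.Agent.L33.Defs

/-!
Normal forms in the Sylow `2`-subgroup `⟨q, a, d, f⟩` of the centraliser.
-/

set_option autoImplicit false

namespace Cfsg.Agent.L33.FrD

open Cfsg.Agent.Rec Cfsg.Agent.Inv.Fz Subgroup

variable {G : Type*} [Group G]

theorem clos_left [Finite G] {xs : List G} {P : G → Prop} (h1 : P 1) (hm : ∀ x ∈ xs, ∀ y, P y → P (x * y))
    {g : G} (hg : g ∈ clos xs) : P g := by
  let K : Subgroup G :=
    { carrier := {g | ∀ y, P y → P (g * y)}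
      one_mem' := fun y hy => by rwa [one_mul]
      mul_mem' := fun {x y} hx hy z hz => by rw [mul_assoc]; exact hx _ (hy _ hz)
      inv_mem' := fun {x} hx => by
        have hp : ∀ n : ℕ, ∀ y, P y → P (x ^ n * y) := by
          intro n
          induction n with
          | zero => intro y hy; rwa [pow_zero, one_mul]
          | succ n ih => intro y hy; rw [pow_succ', mul_assoc]; exact hx _ (ih _ hy)
        have e : x⁻¹ = x ^ (orderOf x - 1) := by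
          rw [eq_comm, ← mul_eq_one_iff_eq_inv, ← pow_succ, Nat.sub_add_cancel (orderOf_pos x), pow_orderOf_eq_one]
        intro y hy
        rw [e]
        exact hp _ _ hy }
  have := (clos_le (K := K)).2 hm hg 1 h1
  rwa [mul_one] at this

/-- A `2`-element whose square is not trivial has a power of order four. -/
theorem exists_root {n : ℕ} {x : G} (hx : x ^ 2 ^ n = 1) (h2 : x * x ≠ 1) :
    ∃ r ∈ zpowers x, r * r ≠ 1 ∧ r * r * (r * r) = 1 := by
  induction n generalizing x with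
  | zero => rw [pow_zero, pow_one] at hx; exact absurd (by rw [hx, mul_one]) h2
  | succ n ih =>
    by_cases h4 : x * x * (x * x) = 1
    · exact ⟨x, mem_zpowers x, h2, h4⟩
    · obtain ⟨r, hr, h⟩ := ih (x := x * x) (by rw [← sq, ← pow_mul, ← pow_succ', hx]) h4
      exact ⟨r, zpowers_le.2 (mul_mem (mem_zpowers x) (mem_zpowers x)) hr, h⟩

section Let

variable {κ : Bool} {a d f σ ρ : G} (h : Let κ a d f σ ρ)
include h

theorem ord : orderOf a = 8 :=
  orderOf_eq_prime_pow (p := 2) (n := 2) h.a4 h.a8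

theorem zp {k l : ℤ} : a ^ k = a ^ l ↔ k % 8 = l % 8 := by
  rw [zpow_eq_zpow_iff_modEq, ord h]
  rfl

theorem zp1 {k : ℤ} : a ^ k = 1 ↔ k % 8 = 0 := by
  rw [← zpow_zero a, zp h]
  rfl

theorem dak (k : ℤ) : d * a ^ k * d⁻¹ = a ^ (3 * k) := by
  rw [← conj_zpow, h.da, zpow_mul]
  norm_cast

theorem dak' (k : ℤ) : d * a ^ k = a ^ (3 * k) * d := by
  rw [← dak h]
  group

theorem fak (hκ : κ = true) (k : ℤ) : f * a ^ k * f⁻¹ = a ^ (5 * k) := by
  rw [← conj_zpow, h.fa hκ, zpow_mul]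
  norm_cast

theorem fak' (hκ : κ = true) (k : ℤ) : f * a ^ k = a ^ (5 * k) * f := by
  rw [← fak h hκ]
  group

theorem fd' : f * d = d * f := by
  have := h.fd
  rwa [mul_inv_eq_iff_eq_mul] at this

theorem fakd (hκ : κ = true) (k : ℤ) : f * (a ^ k * d) * f⁻¹ = a ^ (5 * k) * d := by
  rw [← fak h hκ, ← h.fd]
  nth_rewrite 1 [h.fd]
  group

theorem m21 (k l : ℤ) : a ^ k * d * a ^ l = a ^ (k + 3 * l) * d := by
  rw [mul_assoc, dak' h, zpow_add, mul_assoc]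

theorem m22 (k l : ℤ) : a ^ k * d * (a ^ l * d) = a ^ (k + 3 * l) := by
  rw [← mul_assoc, m21 h, mul_assoc, h.d2, mul_one]

omit h in
theorem akT (k : ℤ) : a ^ k ∈ clos [a, d] := zpow_mem (mem_clos (by simp)) k

omit h in
theorem akdT (k : ℤ) : a ^ k * d ∈ clos [a, d] := mul_mem (akT k) (mem_clos (by simp))

theorem memT [Finite G] {x : G} (hx : x ∈ clos [a, d]) : ∃ k : ℤ, x = a ^ k ∨ x = a ^ k * d := by
  refine clos_left (P := fun x => ∃ k : ℤ, x = a ^ k ∨ x = a ^ k * d) ⟨0, Or.inl (zpow_zero a).symm⟩ ?_ hx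
  intro x hx y hy
  simp only [List.mem_cons, List.not_mem_nil, or_false] at hx
  obtain ⟨k, rfl | rfl⟩ := hy
  · rcases hx with rfl | rfl
    · exact ⟨1 + k, Or.inl (by rw [zpow_add, zpow_one])⟩
    · exact ⟨3 * k, Or.inr (dak' h k)⟩
  · rcases hx with rfl | rfl
    · exact ⟨1 + k, Or.inr (by rw [zpow_add, zpow_one, mul_assoc])⟩
    · exact ⟨3 * k, Or.inl (by rw [← mul_assoc, dak' h, mul_assoc, h.d2, mul_one])⟩

theorem fT [Finite G] (hκ : κ = true) {x : G} (hx : x ∈ clos [a, d]) : f * x * f⁻¹ ∈ clos [a, d] := by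
  obtain ⟨k, rfl | rfl⟩ := memT h hx
  · rw [fak h hκ]; exact akT _
  · rw [fakd h hκ]; exact akdT _

theorem z1 : a ^ (4 : ℤ) ≠ 1 := by
  rw [Ne, zp1 h]
  norm_num

theorem κ_of (hf : f ≠ 1) : κ = true := by
  cases κ
  · exact absurd (h.f0 rfl) hf
  · rfl

end Let

section Pre

variable {κ : Bool} {t q a d f σ ρ : G} {K : Subgroup G} (h : Pre κ t q a d f σ ρ K)
include h

theorem tt : t * t = 1 := by rw [← sq, ← h.t2, pow_orderOf_eq_one]

theorem t1 : t ≠ 1 := by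
  intro e
  have := h.t2
  rw [e, orderOf_one] at this
  omega

omit h in
theorem cQ {u x : G} (hu : u ∈ zpowers q) (hx : q * x * q⁻¹ = x) : Commute u x := by
  obtain ⟨k, rfl⟩ := mem_zpowers_iff.1 hu
  exact Commute.zpow_left (mul_inv_eq_iff_eq_mul.1 hx) k

omit h in
theorem cQ' {u x : G} (hu : u ∈ zpowers q) (hx : x * q * x⁻¹ = q) : x * u * x⁻¹ = u := by
  obtain ⟨k, rfl⟩ := mem_zpowers_iff.1 hu
  rw [← conj_zpow, hx]

omit h in
theorem cQQ {u v : G} (hu : u ∈ zpowers q) (hv : v ∈ zpowers q) : Commute u v := by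
  obtain ⟨k, rfl⟩ := mem_zpowers_iff.1 hv
  exact (cQ hu (by group)).zpow_right k

theorem cQa {u : G} (hu : u ∈ zpowers q) (k : ℤ) : Commute u (a ^ k) := (cQ hu h.qa).zpow_right k

theorem cQd {u : G} (hu : u ∈ zpowers q) : Commute u d := cQ hu h.qd

theorem cQT [Finite G] {u x : G} (hu : u ∈ zpowers q) (hx : x ∈ clos [a, d]) : Commute u x := by
  obtain ⟨k, rfl | rfl⟩ := memT h.toLet hx
  · exact cQa h hu k
  · exact (cQa h hu k).mul_right (cQd h hu)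

theorem fQ {u : G} (hu : u ∈ zpowers q) : f * u * f⁻¹ ∈ zpowers q := by
  obtain ⟨k, rfl⟩ := mem_zpowers_iff.1 hu
  rw [← conj_zpow]
  exact zpow_mem h.fq k

theorem invQ {u : G} (hu : u ∈ zpowers q) (h2 : u * u = 1) : u = 1 ∨ u = t := by
  by_cases h1 : u = 1
  · exact Or.inl h1
  · exact Or.inr (Inv.involution_unique_of_mem_zpowers (orderOf_eq_prime (by rw [sq, h2]) h1) h.t2 hu h.tq)

theorem uniq {u v x y : G} (hu : u ∈ zpowers q) (hv : v ∈ zpowers q) (hx : x ∈ clos [a, d]) (hy : y ∈ clos [a, d])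
    (e : u * x = v * y) : u = v ∧ x = y := by
  have e1 : v⁻¹ * u = y * x⁻¹ := by
    rw [inv_mul_eq_iff_eq_mul, ← mul_assoc, ← e]
    group
  have := h.qT _ (mul_mem (inv_mem hv) hu) (e1 ▸ mul_mem hy (inv_mem hx))
  rw [inv_mul_eq_one] at this
  subst this
  exact ⟨rfl, mul_left_cancel e⟩

theorem uniq1 {u x : G} (hu : u ∈ zpowers q) (hx : x ∈ clos [a, d]) (e : u * x = 1) : u = 1 ∧ x = 1 :=
  uniq h hu (one_mem _) hx (one_mem _) (by rw [e, one_mul])

theorem mulM [Finite G] {v x : G} (hv : v ∈ zpowers q) (hx : x ∈ clos [a, d]) (u y : G) :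
    u * x * (v * y) = u * v * (x * y) := by
  rw [mul_assoc, mul_assoc, ← mul_assoc x, ← (cQT h hv hx).eq, mul_assoc]

theorem mulF [Finite G] (hκ : κ = true) {v x y : G} (hv : v ∈ zpowers q) (hx : x ∈ clos [a, d])
    (hy : y ∈ clos [a, d]) (u : G) :
    u * x * f * (v * y * f) = u * (f * v * f⁻¹) * (f * f) * (x * (f * y * f⁻¹)) := by
  have e1 := (cQT h (fQ h hv) hx).eq
  have e2 := (cQT h h.f2 (mul_mem hx (fT h.toLet hκ hy))).eq
  calc u * x * f * (v * y * f) = u * (x * (f * v * f⁻¹)) * (f * y * f⁻¹) * (f * f) := by group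
    _ = u * (f * v * f⁻¹) * (x * (f * y * f⁻¹) * (f * f)) := by rw [← e1]; group
    _ = _ := by rw [← e2]; group

theorem memS [Finite G] {x : G} (hx : x ∈ clos [q, a, d, f]) :
    ∃ u ∈ zpowers q, ∃ y ∈ clos [a, d], x = u * y ∨ (κ = true ∧ x = u * y * f) := by
  refine clos_left (P := fun x => ∃ u ∈ zpowers q, ∃ y ∈ clos [a, d], x = u * y ∨ (κ = true ∧ x = u * y * f))
    ⟨1, one_mem _, 1, one_mem _, Or.inl (mul_one 1).symm⟩ ?_ hx
  intro x hx y hy
  obtain ⟨u, hu, y, hy, e⟩ := hy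
  have hT : ∀ x ∈ clos [a, d], x * (u * y) = u * (x * y) := fun x hx => by
    rw [← mul_assoc, ← (cQT h hu hx).eq, mul_assoc]
  simp only [List.mem_cons, List.not_mem_nil, or_false] at hx
  have key : ∀ x ∈ clos [a, d], ∀ w, (w = u * y ∨ (κ = true ∧ w = u * y * f)) →
      ∃ u ∈ zpowers q, ∃ y ∈ clos [a, d], x * w = u * y ∨ (κ = true ∧ x * w = u * y * f) := by
    intro x hx w e
    refine ⟨u, hu, x * y, mul_mem hx hy, ?_⟩
    rcases e with rfl | ⟨hκ, rfl⟩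
    · exact Or.inl (hT x hx)
    · exact Or.inr ⟨hκ, by rw [← mul_assoc, hT x hx]⟩
  rcases hx with rfl | rfl | rfl | rfl
  · refine ⟨x * u, mul_mem (mem_zpowers x) hu, y, hy, ?_⟩
    rcases e with rfl | ⟨hκ, rfl⟩
    · exact Or.inl (by group)
    · exact Or.inr ⟨hκ, by group⟩
  · exact key _ (mem_clos (by simp)) _ e
  · exact key _ (mem_clos (by simp)) _ e
  · by_cases hf : x = 1
    · exact ⟨u, hu, y, hy, by rw [hf, one_mul]; rwa [hf] at e⟩
    have hκ := κ_of h.toLet hf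
    rcases e with rfl | ⟨-, rfl⟩
    · exact ⟨_, fQ h hu, _, fT h.toLet hκ hy, Or.inr ⟨hκ, by group⟩⟩
    · refine ⟨_, mul_mem (fQ h hu) h.f2, _, fT h.toLet hκ hy, Or.inl ?_⟩
      have := mulF h hκ hu (one_mem _) hy 1
      simpa only [one_mul] using this

theorem memS' [Finite G] {x : G} (hx : x ∈ clos [q, a, d, f]) :
    ∃ u ∈ zpowers q, ∃ k : ℤ, x = u * a ^ k ∨ x = u * (a ^ k * d) ∨
      (κ = true ∧ (x = u * a ^ k * f ∨ x = u * (a ^ k * d) * f)) := by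
  obtain ⟨u, hu, y, hy, e⟩ := memS h hx
  obtain ⟨k, rfl | rfl⟩ := memT h.toLet hy
  · exact ⟨u, hu, k, by tauto⟩
  · exact ⟨u, hu, k, by tauto⟩

omit h in
theorem QS {u : G} (hu : u ∈ zpowers q) : u ∈ clos [q, a, d, f] := zpowers_le.2 (mem_clos (by simp)) hu

omit h in
theorem TS {x : G} (hx : x ∈ clos [a, d]) : x ∈ clos [q, a, d, f] :=
  clos_le.2 (by simp only [List.mem_cons, List.not_mem_nil, or_false]; rintro x (rfl | rfl) <;> exact mem_clos (by simp)) hx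

omit h in
theorem fS : f ∈ clos [q, a, d, f] := mem_clos (by simp)

theorem St {x : G} (hx : x ∈ clos [q, a, d, f]) : x * t = t * x := mem_cen.1 (h.syl.le hx)

/-- The action on `⟨a⟩`. -/
theorem cj1 {u : G} (hu : u ∈ zpowers q) (k l : ℤ) : u * a ^ k * a ^ l * (u * a ^ k)⁻¹ = a ^ l := by
  rw [mul_inv_eq_iff_eq_mul]
  exact ((cQa h hu l).mul_left (Commute.zpow_zpow_self a k l)).eq

theorem cj2 {u : G} (hu : u ∈ zpowers q) (k l : ℤ) :
    u * (a ^ k * d) * a ^ l * (u * (a ^ k * d))⁻¹ = a ^ (3 * l) := by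
  rw [← cj1 h hu k (3 * l), ← dak h.toLet]
  group

theorem cj3 (hκ : κ = true) {u : G} (hu : u ∈ zpowers q) (k l : ℤ) :
    u * a ^ k * f * a ^ l * (u * a ^ k * f)⁻¹ = a ^ (5 * l) := by
  rw [← cj1 h hu k (5 * l), ← fak h.toLet hκ]
  group

theorem cj4 (hκ : κ = true) {u : G} (hu : u ∈ zpowers q) (k l : ℤ) :
    u * (a ^ k * d) * f * a ^ l * (u * (a ^ k * d) * f)⁻¹ = a ^ (3 * (5 * l)) := by
  rw [← cj2 h hu k (5 * l), ← fak h.toLet hκ]
  group

/-- The centraliser of `a` in `S`. -/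
theorem cen_a [Finite G] {x : G} (hx : x ∈ clos [q, a, d, f]) (e : x * a = a * x) :
    ∃ u ∈ zpowers q, ∃ k : ℤ, x = u * a ^ k := by
  have e1 : x * a ^ (1 : ℤ) * x⁻¹ = a ^ (1 : ℤ) := by rw [zpow_one, e]; group
  obtain ⟨u, hu, k, rfl | rfl | ⟨hκ, rfl | rfl⟩⟩ := memS' h hx
  · exact ⟨u, hu, k, rfl⟩
  · rw [cj2 h hu, zp h.toLet] at e1; omega
  · rw [cj3 h hκ hu, zp h.toLet] at e1; omega
  · rw [cj4 h hκ hu, zp h.toLet] at e1; omega

/-- The centraliser of `a ^ 2` in `S`. -/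
theorem cen_i [Finite G] {x : G} (hx : x ∈ clos [q, a, d, f]) (e : x * a ^ (2 : ℤ) * x⁻¹ = a ^ (2 : ℤ)) :
    ∃ u ∈ zpowers q, ∃ k : ℤ, x = u * a ^ k ∨ (κ = true ∧ x = u * a ^ k * f) := by
  obtain ⟨u, hu, k, rfl | rfl | ⟨hκ, rfl | rfl⟩⟩ := memS' h hx
  · exact ⟨u, hu, k, Or.inl rfl⟩
  · rw [cj2 h hu, zp h.toLet] at e; omega
  · exact ⟨u, hu, k, Or.inr ⟨hκ, rfl⟩⟩
  · rw [cj4 h hκ hu, zp h.toLet] at e; omega

/-- The centraliser of `⟨a, d⟩` in `S`. -/
theorem cen_ad [Finite G] {x : G} (hx : x ∈ clos [q, a, d, f]) (e : x * a = a * x) (e' : x * d = d * x) :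
    ∃ u ∈ zpowers q, x = u ∨ x = u * a ^ (4 : ℤ) := by
  obtain ⟨u, hu, k, rfl⟩ := cen_a h hx e
  refine ⟨u, hu, ?_⟩
  have e1 : a ^ (3 * k) = a ^ k := by
    rw [← dak h.toLet, mul_inv_eq_iff_eq_mul]
    apply mul_left_cancel (a := u)
    rw [← mul_assoc, (cQd h hu).eq, mul_assoc d, ← e', mul_assoc]
  rw [zp h.toLet] at e1
  have : k % 8 = 0 % 8 ∨ k % 8 = 4 % 8 := by omega
  rcases this with e2 | e2
  · exact Or.inl (by rw [(zp h.toLet).2 e2, zpow_zero, mul_one])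
  · exact Or.inr (by rw [(zp h.toLet).2 e2])

/-- `z = a ^ 4` is central in `S`. -/
theorem Sz [Finite G] {x : G} (hx : x ∈ clos [q, a, d, f]) : x * a ^ (4 : ℤ) = a ^ (4 : ℤ) * x := by
  rw [← mul_inv_eq_iff_eq_mul]
  obtain ⟨u, hu, k, rfl | rfl | ⟨hκ, rfl | rfl⟩⟩ := memS' h hx
  · rw [cj1 h hu]
  · rw [cj2 h hu, zp h.toLet]; omega
  · rw [cj3 h hκ hu, zp h.toLet]; omega
  · rw [cj4 h hκ hu, zp h.toLet]; omega

/-- Squares lie in `Q T`. -/
theorem sqM [Finite G] {x : G} (hx : x ∈ clos [q, a, d, f]) :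
    ∃ u ∈ zpowers q, ∃ y ∈ clos [a, d], x * x = u * y := by
  obtain ⟨u, hu, y, hy, rfl | ⟨hκ, rfl⟩⟩ := memS h hx
  · exact ⟨_, mul_mem hu hu, _, mul_mem hy hy, mulM h hu hy u y⟩
  · exact ⟨_, mul_mem (mul_mem hu (fQ h hu)) h.f2, _, mul_mem hy (fT h.toLet hκ hy), mulF h hκ hu hy hy u⟩

theorem two_elt {x : G} (hx : x ∈ clos [q, a, d, f]) : ∃ n : ℕ, x ^ 2 ^ n = 1 := by
  obtain ⟨n, hn⟩ := h.syl.isPGroup ⟨x, hx⟩
  exact ⟨n, by simpa using congrArg Subtype.val hn⟩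

/-- An element of `Q` of order greater than two has a power with square `t`. -/
theorem root {u : G} (hu : u ∈ zpowers q) (h2 : u * u ≠ 1) : ∃ r ∈ zpowers u, r * r = t := by
  obtain ⟨n, hn⟩ := two_elt h (QS hu)
  obtain ⟨r, hr, h1, h4⟩ := exists_root hn h2
  have hr' := zpowers_le.2 hu hr
  exact ⟨r, hr, (invQ h (mul_mem hr' hr') h4).resolve_left h1⟩

end Pre

end Cfsg.Agent.L33.FrD
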