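import Mathlib
import Cfsg.Agent.L33.EDefs
import Cfsg.Agent.L33.FrD0

/-!
The global facts follow from the configuration.
-/

set_option autoImplicit false

namespace Cfsg.Agent.L33

open Cfsg.Agent.Rec Cfsg.Agent.Inv.Fz Subgroup

variable {G : Type*} [Group G] [Finite G]

namespace EG1

theorem card_le_of {S : Subgroup G} {ι : Type*} [Finite ι] (φ : ι → G) (h : ∀ x ∈ S, ∃ i, x = φ i) :
    Nat.card S ≤ Nat.card ι := by
  choose ψ hψ using fun x : S => h x x.2
  exact Nat.card_le_card_of_injective ψ fun x y e => Subtype.ext (by rw [hψ x, hψ y, e])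

omit [Finite G] in
theorem cond_mul {x : G} (h : x * x = 1) (b c : Bool) : cond b x 1 * cond c x 1 = cond (b ^^ c) x 1 := by
  cases b <;> cases c <;> simp [h]

omit [Finite G] in
theorem cond_comm {x y : G} (h : Commute x y) (b : Bool) : Commute (cond b x 1) y := by
  cases b
  exacts [Commute.one_left y, h]

/-- The normal form. -/
def nf (t a d f : G) (e : Bool) (k : ℤ) (u v : Bool) : G := cond e t 1 * a ^ k * (cond u d 1 * cond v f 1)

/-- The exponent of the action on `⟨a⟩`. -/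
def al (κ u v : Bool) : ℤ := cond u 3 1 * cond (v && κ) 5 1

section

variable {κ : Bool} {t a d f σ ρ : G} {K : Subgroup G} (h : Cfg κ t a d f σ ρ K)
include h

theorem pa (u v : Bool) (n : ℤ) :
    cond u d 1 * cond v f 1 * a ^ n = a ^ (al κ u v * n) * (cond u d 1 * cond v f 1) := by
  have h1 : cond v f 1 * a ^ n = a ^ (cond (v && κ) 5 1 * n) * cond v f 1 := by
    cases v
    · simp
    · cases κ
      · simp [h.f0 rfl]
      · exact FrD.fak' h.toLet rfl n
  have h2 : ∀ m : ℤ, cond u d 1 * a ^ m = a ^ (cond u 3 1 * m) * cond u d 1 := fun m => by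
    cases u
    · simp
    · exact FrD.dak' h.toLet m
  rw [mul_assoc, h1, ← mul_assoc, h2, al, mul_assoc, mul_assoc]

theorem nf_mul (e e' : Bool) (k k' : ℤ) (u u' v v' : Bool) : nf t a d f e k u v * nf t a d f e' k' u' v' =
    nf t a d f (e ^^ e') (k + al κ u v * k') (u ^^ u') (v ^^ v') := by
  have ta : Commute t a := mul_inv_eq_iff_eq_mul.1 h.ta
  have td : Commute t d := mul_inv_eq_iff_eq_mul.1 h.td
  have tf : Commute t f := mul_inv_eq_iff_eq_mul.1 h.tf
  have fd : Commute f d := FrD.fd' h.toLet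
  have c1 : Commute (cond e' t 1) (a ^ k * (cond u d 1 * cond v f 1)) := cond_comm ((ta.zpow_right k).mul_right
    ((cond_comm td.symm u).symm.mul_right (cond_comm tf.symm v).symm)) e'
  have c2 : Commute (cond v f 1) (cond u' d 1) := cond_comm (cond_comm fd.symm u').symm v
  rw [nf, nf, nf, ← cond_mul h.t2, ← cond_mul h.d2, ← cond_mul h.f2, zpow_add]
  calc _ = cond e t 1 * (a ^ k * (cond u d 1 * cond v f 1) * cond e' t 1) * a ^ k' * (cond u' d 1 * cond v' f 1) := by group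
    _ = cond e t 1 * cond e' t 1 * a ^ k * (cond u d 1 * cond v f 1 * a ^ k') * (cond u' d 1 * cond v' f 1) := by
      rw [← c1.eq]; group
    _ = cond e t 1 * cond e' t 1 * a ^ k * a ^ (al κ u v * k') * cond u d 1 * (cond v f 1 * cond u' d 1) *
        cond v' f 1 := by rw [pa h]; group
    _ = _ := by rw [c2.eq]; group

omit h [Finite G] in
theorem nf_a (k : ℤ) : a ^ k = nf t a d f false k false false := by simp [nf]

theorem a_nf (n : ℤ) (e : Bool) (k : ℤ) (u v : Bool) : a ^ n * nf t a d f e k u v = nf t a d f e (n + k) u v := by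
  rw [nf_a (t := t) (d := d) (f := f), nf_mul h]
  simp [al]

theorem nf_cj (e : Bool) (k : ℤ) (u v : Bool) (n : ℤ) :
    nf t a d f e k u v * a ^ n * (nf t a d f e k u v)⁻¹ = a ^ (al κ u v * n) := by
  rw [mul_inv_eq_iff_eq_mul, a_nf h, nf_a (t := t) (d := d) (f := f), nf_mul h]
  simp [add_comm]

theorem memS {x : G} (hx : x ∈ clos [t, a, d, f]) : ∃ e k u v, x = nf t a d f e k u v := by
  refine FrD.clos_left (P := fun x => ∃ e k u v, x = nf t a d f e k u v) ⟨false, 0, false, false, by simp [nf]⟩ ?_ hx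
  rintro x hx _ ⟨e, k, u, v, rfl⟩
  obtain ⟨e', k', u', v', rfl⟩ : ∃ e k u v, x = nf t a d f e k u v := by
    simp only [List.mem_cons, List.not_mem_nil, or_false] at hx
    rcases hx with rfl | rfl | rfl | rfl
    exacts [⟨true, 0, false, false, by simp [nf]⟩, ⟨false, 1, false, false, by simp [nf]⟩,
      ⟨false, 0, true, false, by simp [nf]⟩, ⟨false, 0, false, true, by simp [nf]⟩]
  exact ⟨_, _, _, _, nf_mul h ..⟩

theorem nf_mod {k l : ℤ} (hk : k % 8 = l % 8) (e u v : Bool) : nf t a d f e k u v = nf t a d f e l u v := by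
  rw [nf, nf, (FrD.zp h.toLet).2 hk]

theorem cardS : Nat.card (clos [t, a, d, f]) ≤ 2 ^ cond κ 6 5 := by
  have k8 : ∀ k : ℤ, ∃ j : Fin 8, k % 8 = (j.1 : ℤ) % 8 := fun k => ⟨⟨(k % 8).toNat, by omega⟩, by simp; omega⟩
  cases κ
  · refine (card_le_of (fun p : Bool × Fin 8 × Bool => nf t a d f p.1 p.2.1.1 p.2.2 false) fun x hx => ?_).trans (by simp)
    obtain ⟨e, k, u, v, rfl⟩ := memS h hx
    obtain ⟨j, hj⟩ := k8 k
    refine ⟨(e, j, u), (nf_mod h hj e u v).trans ?_⟩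
    cases v <;> simp [nf, h.f0 rfl]
  · refine (card_le_of (fun p : Bool × Fin 8 × Bool × Bool => nf t a d f p.1 p.2.1.1 p.2.2.1 p.2.2.2)
      fun x hx => ?_).trans (by simp)
    obtain ⟨e, k, u, v, rfl⟩ := memS h hx
    obtain ⟨j, hj⟩ := k8 k
    exact ⟨(e, j, u, v), nf_mod h hj e u v⟩

/-- The only commutator of order two in `S`. -/
theorem comm_eq {x y : G} (hx : x ∈ clos [t, a, d, f]) (hy : y ∈ clos [t, a, d, f]) {c : G} (hc : x * y = c * (y * x))
    (c1 : c ≠ 1) (c2 : c * c = 1) : c = a ^ 4 := by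
  obtain ⟨e, k, u, v, rfl⟩ := memS h hx
  obtain ⟨e', k', u', v', rfl⟩ := memS h hy
  have e1 : c = a ^ (k + al κ u v * k' - (k' + al κ u' v' * k)) := by
    refine mul_right_cancel (hc.symm.trans ?_)
    rw [nf_mul h, nf_mul h, a_nf h, sub_add_cancel, Bool.xor_comm e, Bool.xor_comm u, Bool.xor_comm v]
  subst e1
  rw [← zpow_add, FrD.zp1 h.toLet] at c2
  rw [Ne, FrD.zp1 h.toLet] at c1
  exact ((FrD.zp h.toLet (l := 4)).2 (by omega)).trans (zpow_natCast a 4)

end

theorem noF {t a d f σ ρ : G} {K : Subgroup G} (h : Cfg true t a d f σ ρ K) {F : Subgroup G}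
    (hF : F ≤ clos [t, a, d, f]) (h2 : ∀ y ∈ F, y * y = 1) (hn : a ∈ normalizer (F : Set G)) : Nat.card F ≤ 8 := by
  refine (card_le_of (fun p : Bool × Bool × Bool => nf t a d f p.1 (cond p.2.1 4 0) false p.2.2) fun y hy => ?_).trans
    (by simp)
  have h1 := h2 _ (mul_mem hy (conj_mem_of_mem_norm hn (inv_mem hy)))
  have h3 := h2 y hy
  obtain ⟨e, k, u, v, rfl⟩ := memS h (hF hy)
  have e1 : nf t a d f e k u v * (a * (nf t a d f e k u v)⁻¹ * a⁻¹) = a ^ (al true u v * 1 - 1) := by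
    rw [zpow_sub, ← nf_cj h e k]; group
  rw [e1, ← zpow_add, FrD.zp1 h.toLet] at h1
  obtain rfl : u = false := by
    cases u
    · rfl
    · cases v <;> simp [al] at h1
  rw [nf_mul h, Bool.xor_self, Bool.xor_self, Bool.xor_self, ← nf_a, FrD.zp1 h.toLet] at h3
  have : k % 8 = 4 % 8 ∨ k % 8 = 0 % 8 := by cases v <;> simp [al] at h3 <;> omega
  rcases this with e2 | e2
  exacts [⟨(e, true, v), nf_mod h e2 ..⟩, ⟨(e, false, v), nf_mod h e2 ..⟩]

theorem mem_four {x z y : G} (hx : x * x = 1) (hz : z * z = 1) (hc : x * z = z * x) (hy : y ∈ clos [x, z]) :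
    y = 1 ∨ y = x ∨ y = z ∨ y = x * z := by
  refine FrD.clos_left (P := fun y => y = 1 ∨ y = x ∨ y = z ∨ y = x * z) (.inl rfl) ?_ hy
  intro w hw y hy
  have e1 : x * (x * z) = z := by rw [← mul_assoc, hx, one_mul]
  have e2 : z * (x * z) = x := by rw [hc, ← mul_assoc, hz, one_mul]
  simp only [List.mem_cons, List.not_mem_nil, or_false] at hw
  rcases hw with rfl | rfl <;> rcases hy with rfl | rfl | rfl | rfl <;> simp [hx, hz, e1, e2, ← hc]

theorem act {x z g : G} (hx : x * x = 1) (x1 : x ≠ 1) (hz : z * z = 1) (hc : x * z = z * x)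
    (h1 : g ∈ normalizer (clos [z] : Set G)) (h2 : g ∈ normalizer (clos [x, z] : Set G)) :
    g * z * g⁻¹ = z ∧ (g * x * g⁻¹ = x ∨ g * x * g⁻¹ = x * z) := by
  have e : g * z * g⁻¹ = z := by
    have := mem_four hz hz rfl (clos_le.2 (by simp [mem_clos]) (conj_mem_of_mem_norm h1 (mem_clos (by simp))) :
      g * z * g⁻¹ ∈ clos [z, z])
    rw [hz] at this
    rcases this with e | e | e | e
    exacts [by rw [e, conj_eq_one.1 e], e, e, by rw [e, conj_eq_one.1 e]]
  refine ⟨e, ?_⟩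
  rcases mem_four hx hz hc (conj_mem_of_mem_norm h2 (mem_clos (by simp)) : g * x * g⁻¹ ∈ clos [x, z]) with k | k | k | k
  · exact absurd (conj_eq_one.1 k) x1
  · exact .inl k
  · exact .inl (k.trans (mul_left_cancel (mul_right_cancel (e.trans k.symm))))
  · exact .inr k

omit [Finite G] in
theorem conj_t {s : ℕ} {t x : G} (h : Glob s t) (hx : IsConj t x) : x * x = 1 ∧ x ≠ 1 := by
  obtain ⟨g, rfl⟩ := isConj_iff.1 hx
  exact ⟨conj_sq h.t2, fun e => h.t1 (conj_eq_one.1 e)⟩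

end EG1

open EG1

theorem Cfg.glob {κ : Bool} {t a d f σ ρ : G} {K : Subgroup G} (h : Cfg κ t a d f σ ρ K) :
    Glob (cond κ 6 5) t := by
  have o1 : ∀ x, IsConj t x → ∃ g : G, IsSylIn 2 (cj g (clos [t, a, d, f])) (centralizer {x}) := fun x hx => by
    obtain ⟨g, rfl⟩ := isConj_iff.1 hx
    exact ⟨g, cj_centralizer_singleton g t ▸ h.syl.cj g⟩
  refine ⟨h.t2, fun e => h.tT (e ▸ one_mem _), fun x hx D hD hle => ?_, fun hs x hx F D xF F2 cF hD hle hn => ?_⟩
  · obtain ⟨g, hg⟩ := o1 x hx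
    exact (hg.card_le hD hle).trans ((card_cj _ _).trans_le (cardS h))
  obtain rfl : κ = true := by cases κ; exacts [absurd hs (by decide), rfl]
  by_contra hc
  obtain ⟨g, hg⟩ := o1 x hx
  have hS : IsSylIn 2 D (centralizer {x}) := hg.of_card_ge hD hle ((card_cj _ _).trans_le ((cardS h).trans (by
    obtain ⟨n, hn⟩ := hD.exists_card_eq
    rw [hn] at hc ⊢
    have : ¬ n ≤ 5 := fun e => hc (Nat.pow_le_pow_right two_pos e)
    exact Nat.pow_le_pow_right two_pos (show 6 ≤ n by omega))))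
  have Fx : F ≤ centralizer {x} := fun y hy => mem_cen.2 (by
    rw [← inv_eq_of_mul_eq_one_right (F2 _ (mul_mem hy xF)), mul_inv_rev, inv_eq_of_mul_eq_one_right (F2 _ hy),
      inv_eq_of_mul_eq_one_right (F2 _ xF)])
  have FD : F ≤ D := le_sup_right.trans (hS.eq_of_le (hD.to_sup_of_normal_right' (IsPGroup.of_card (n := 4) cF) hn)
    (sup_le hle Fx) le_sup_left).le
  obtain ⟨k, -, hk⟩ := hg.exists_cj_eq hS
  have e : cj (g⁻¹ * k) D = clos [t, a, d, f] := by rw [← cj_cj, hk, cj_inv_cj]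
  have := noF h (F := cj (g⁻¹ * k) F) (e ▸ cj_mono FD) (by rintro _ ⟨y, hy, rfl⟩; exact conj_sq (F2 y hy))
    (by rw [← cj_normalizer]; exact cj_mono hn (e.ge (mem_clos (by simp))))
  rw [card_cj] at this
  omega

theorem Cfg.swap {t a d f σ ρ : G} {K : Subgroup G} (h : Cfg true t a d f σ ρ K) :
    Cfg true t a d (t * f) σ ρ K := by
  have e : clos [t, a, d, t * f] = clos [t, a, d, f] := by
    refine le_antisymm (clos_le.2 ?_) (clos_le.2 ?_) <;>
      simp only [List.forall_mem_cons, List.not_mem_nil, false_imp_iff, implies_true, and_true]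
    · exact ⟨mem_clos (by simp), mem_clos (by simp), mem_clos (by simp), mul_mem (mem_clos (by simp)) (mem_clos (by simp))⟩
    · exact ⟨mem_clos (by simp), mem_clos (by simp), mem_clos (by simp),
        (mul_mem_cancel_left (mem_clos (by simp : t ∈ [t, a, d, t * f]))).1 (mem_clos (by simp))⟩
  have tf : t * f = f * t := mul_inv_eq_iff_eq_mul.1 h.tf
  refine { h with
    fd := ?_, f0 := fun e => absurd e (by decide), fa := fun _ => ?_, σc := fun _ => ?_, ρf := ?_, f2 := ?_, tf := ?_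
    tT := fun hT => ?_, syl := e ▸ h.syl, KS := e ▸ h.KS }
  · rw [show t * f * d * (t * f)⁻¹ = t * (f * d * f⁻¹) * t⁻¹ by group, h.fd, h.td]
  · rw [show t * f * a * (t * f)⁻¹ = t * (f * a * f⁻¹) * t⁻¹ by group, h.fa rfl, ← conj_pow, h.ta]
  · rw [mul_assoc t, ← conj_mul, h.σt, h.σc rfl]
  · rw [← conj_mul, h.ρt, h.ρf]
  · rw [mul_assoc, ← mul_assoc f, ← tf, mul_assoc, h.f2, mul_one, h.t2]
  · rw [← conj_mul, h.tf, mul_inv_cancel_right]
  · obtain ⟨k, u, v, e1⟩ : ∃ k u v, t = nf t a d f v k u v := by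
      refine FrD.clos_left (P := fun x => ∃ k u v, x = nf t a d f v k u v) ⟨0, false, false, by simp [nf]⟩ ?_ hT
      rintro x hx _ ⟨k, u, v, rfl⟩
      obtain ⟨k', u', v', rfl⟩ : ∃ k u v, x = nf t a d f v k u v := by
        simp only [List.mem_cons, List.not_mem_nil, or_false] at hx
        rcases hx with rfl | rfl | rfl
        exacts [⟨1, false, false, by simp [nf]⟩, ⟨0, true, false, by simp [nf]⟩, ⟨0, false, true, by simp [nf]⟩]
      exact ⟨_, _, _, nf_mul h ..⟩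
    have e2 := nf_cj h v k u v 1
    rw [← e1, ← conj_zpow, h.ta, FrD.zp h.toLet] at e2
    obtain ⟨rfl, rfl⟩ : u = false ∧ v = false := by cases u <;> cases v <;> simp [al] at e2 ⊢
    exact h.tT (by rw [e1, ← nf_a]; exact zpow_mem (mem_clos (by simp)) k)

theorem Cfg.pair {t a d f σ ρ : G} {K : Subgroup G} (h : Cfg true t a d f σ ρ K) (hf : IsConj t f) :
    ∃ m : G, m * f * m⁻¹ = t ∧ m * a ^ 4 * m⁻¹ = a ^ 4 := by
  obtain ⟨g, hg⟩ := isConj_iff.1 hf.symm
  have i1 : a ^ (2 : ℤ) ∈ clos [t, a, d, f] ⊓ centralizer {f} := ⟨zpow_mem (mem_clos (by simp)) _, mem_cen.2 (by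
    rw [FrD.fak' h.toLet rfl, (FrD.zp h.toLet (k := 5 * 2) (l := 2)).2 (by norm_num)])⟩
  have d1 : d ∈ clos [t, a, d, f] ⊓ centralizer {f} := ⟨mem_clos (by simp), mem_cen.2 (FrD.fd' h.toLet).symm⟩
  obtain ⟨k, hk, hle⟩ := h.syl.exists_cj_le (isPGroup_cj (H := clos [t, a, d, f] ⊓ centralizer {f})
    h.syl.isPGroup.to_inf_left g) (by rw [← hg, ← cj_centralizer_singleton]; exact cj_mono inf_le_right)
  rw [cj_cj] at hle
  refine ⟨k * g, by rw [show k * g * f * (k * g)⁻¹ = k * (g * f * g⁻¹) * k⁻¹ by group, hg, mem_cen'.1 hk], ?_⟩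
  refine comm_eq h (hle (conj_mem_cj.2 i1)) (hle (conj_mem_cj.2 d1)) ?_ (fun e => h.a4 (conj_eq_one.1 e))
    (conj_sq (by rw [← pow_add, h.a8]))
  rw [conj_mul, conj_mul, conj_mul, FrD.dak' h.toLet, ← mul_assoc (a ^ 4), ← zpow_natCast, ← zpow_add,
    (FrD.zp h.toLet (k := 2) (l := (4 : ℕ) + 3 * 2)).2 (by norm_num)]

variable {s : ℕ} {t : G}

theorem Glob.o2 (h : Glob s t) {x z : G} (hx : IsConj t x) (hz : z * z = 1) (hc : x * z = z * x) {D : Subgroup G}
    (hD : IsPGroup 2 D) (h1 : D ≤ normalizer (clos [z] : Set G)) (h2 : D ≤ normalizer (clos [x, z] : Set G)) :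
    Nat.card D ≤ 2 ^ (s + 1) := by
  have k := fun g (hg : g ∈ D) => (act (conj_t h hx).1 (conj_t h hx).2 hz hc (h1 hg) (h2 hg)).2
  have h3 := h.o1 x hx (D ⊓ centralizer {x}) hD.to_inf_left inf_le_right
  by_cases hle : D ≤ centralizer {x}
  · rw [inf_of_le_left hle] at h3
    omega
  obtain ⟨g, hg, hn⟩ := SetLike.not_le_iff_exists.1 hle
  have e := (k g hg).resolve_left fun e => hn (mem_cen'.2 e)
  refine (card_le_of (fun p : Bool × (D ⊓ centralizer {x} : Subgroup G) => cond p.1 g 1 * p.2) fun y hy => ?_).trans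
    (by rw [Nat.card_prod, Nat.card_eq_fintype_card, Fintype.card_bool]; omega)
  rcases k y hy with e' | e'
  · exact ⟨(false, ⟨y, hy, mem_cen'.2 e'⟩), (one_mul y).symm⟩
  · refine ⟨(true, ⟨g⁻¹ * y, D.mul_mem (D.inv_mem hg) hy, mem_cen'.2 ?_⟩), (mul_inv_cancel_left g y).symm⟩
    rw [show g⁻¹ * y * x * (g⁻¹ * y)⁻¹ = g⁻¹ * (y * x * y⁻¹) * g by group, e', ← e]
    group

theorem Glob.extremal (h : Glob s t) {x v : G} (hx : IsConj t x) {N C : Subgroup G} (hN : IsPGroup 2 N) (hCN : C ≤ N)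
    (hC : C ≤ centralizer {x}) (hc : Nat.card C = 2 ^ s) (hv : v ∈ normalizer (N : Set G)) (h2 : v * v ∈ N)
    (hvN : v ∉ N) (hvx : v * x = x * v) : False := by
  have pv : IsPGroup 2 (zpowers v) := by
    obtain ⟨k, hk⟩ := hN ⟨_, h2⟩
    have e : v ^ 2 ^ (k + 1) = 1 := by rw [pow_succ', pow_mul, pow_two]; exact congrArg Subtype.val hk
    obtain ⟨j, -, hj⟩ := (Nat.dvd_prime_pow Nat.prime_two).1 (orderOf_dvd_of_pow_eq_one e)
    exact IsPGroup.of_card (by rw [Nat.card_zpowers, hj])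
  have h3 := h.o1 x hx ((N ⊔ zpowers v) ⊓ centralizer {x})
    (hN.to_sup_of_normal_left' pv (zpowers_le.2 hv)).to_inf_left inf_le_right
  exact hvN (hCN ((eq_of_le_of_card_ge (le_inf (hCN.trans le_sup_left) hC) (hc ▸ h3)).ge
    ⟨mem_sup_right (mem_zpowers v), mem_cen.2 hvx⟩))

theorem Glob.fuse0 (h : Glob s t) {x r : G} (hx : IsConj t x) (hr : IsConj t r) {M D : Subgroup G}
    (hM : M ≤ centralizer {r}) (hc : Nat.card M = 2 ^ s) (hD : IsPGroup 2 D) (hDx : D ≤ centralizer {x}) :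
    ∃ u : G, u * x * u⁻¹ = r ∧ ∀ y ∈ D, u * y * u⁻¹ ∈ M := by
  have hS : IsSylIn 2 M (centralizer {r}) :=
    isSylIn_of_card_le hM (IsPGroup.of_card hc) fun Q hQ hle _ => hc ▸ h.o1 r hr Q hQ hle
  obtain ⟨g, rfl⟩ := isConj_iff.1 (hx.symm.trans hr)
  obtain ⟨k, hk, hle⟩ := hS.exists_cj_le (isPGroup_cj hD g) (cj_centralizer_singleton g x ▸ cj_mono hDx)
  rw [cj_cj] at hle
  exact ⟨k * g, by rw [← mem_cen'.1 hk]; group, cj_le_iff.1 hle⟩

theorem Glob.fuse1 (h : Glob s t) {x z r w b : G} (hr : IsConj t r) (hw : w * w = 1) (hrw : r * w = w * r)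
    (hb : b * x * b⁻¹ = r) (hb' : b * z * b⁻¹ = w) {M D : Subgroup G} (hM : M ≤ normalizer (clos [w] : Set G))
    (hM' : M ≤ normalizer (clos [r, w] : Set G)) (hc : Nat.card M = 2 ^ (s + 1)) (hD : IsPGroup 2 D)
    (h1 : D ≤ normalizer (clos [z] : Set G)) (h2 : D ≤ normalizer (clos [x, z] : Set G)) :
    ∃ u : G, u * x * u⁻¹ = r ∧ u * z * u⁻¹ = w ∧ ∀ y ∈ D, u * y * u⁻¹ ∈ M := by
  have hS : IsSylIn 2 M (normalizer (clos [w] : Set G) ⊓ normalizer (clos [r, w] : Set G)) :=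
    isSylIn_of_card_le (le_inf hM hM') (IsPGroup.of_card hc) fun Q hQ hle _ =>
      hc ▸ h.o2 hr hw hrw hQ (hle.trans inf_le_left) (hle.trans inf_le_right)
  have e1 : cj b (clos [z]) = clos [w] := hb' ▸ map_clos _ _
  have e2 : cj b (clos [x, z]) = clos [r, w] := hb ▸ hb' ▸ map_clos _ _
  obtain ⟨k, hk, hle⟩ := hS.exists_cj_le (isPGroup_cj hD b)
    (le_inf (by rw [← e1, ← cj_normalizer]; exact cj_mono h1) (by rw [← e2, ← cj_normalizer]; exact cj_mono h2))
  rw [cj_cj] at hle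
  have c : ∀ g y : G, g * b * y * (g * b)⁻¹ = g * (b * y * b⁻¹) * g⁻¹ := fun g y => by group
  obtain ⟨k1, k2 | k2⟩ := act (conj_t h hr).1 (conj_t h hr).2 hw hrw hk.1 hk.2
  · exact ⟨k * b, by rw [c, hb, k2], by rw [c, hb', k1], cj_le_iff.1 hle⟩
  · obtain ⟨g, hg, hn⟩ := SetLike.not_le_iff_exists.1 fun hle : M ≤ centralizer {r} => by
      have := h.o1 r hr M hS.isPGroup hle
      have := Nat.two_pow_pos s
      omega
    obtain ⟨g1, g2⟩ := act (conj_t h hr).1 (conj_t h hr).2 hw hrw (hM hg) (hM' hg)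
    have g3 := g2.resolve_left fun e => hn (mem_cen'.2 e)
    have c' : ∀ y : G, g * (k * b) * y * (g * (k * b))⁻¹ = g * (k * b * y * (k * b)⁻¹) * g⁻¹ := fun y => by group
    refine ⟨g * (k * b), ?_, by rw [c', c, hb', k1, g1],
      fun y hy => c' y ▸ mul_mem (mul_mem hg (cj_le_iff.1 hle y hy)) (inv_mem hg)⟩
    rw [c', c, hb, k2, ← conj_mul, g1, g3, mul_assoc, hw, mul_one]

end Cfsg.Agent.L33
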