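import Mathlib
import Cfsg.Agent.L33.EDefs
import Cfsg.Agent.GT.TransferCocycle

/-!
Sylow arguments for the climbing procedure.
-/

set_option autoImplicit false

namespace Cfsg.Agent.L33

open Cfsg.Agent.Rec Cfsg.Agent.Inv.Fz Subgroup

variable {G : Type*} [Group G] [Finite G]

omit [Finite G] in
theorem eg2_conj {H : Subgroup G} {g x : G} (hg : g ∈ normalizer (H : Set G)) (hx : x ∈ H) :
    g * x * g⁻¹ ∈ H := (mem_normalizer_iff.1 hg x).1 hx

theorem exists_ext {N K : Subgroup G} (hN : IsPGroup 2 N) (hK : N ≤ K) (h : ¬ IsSylIn 2 N K) :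
    ∃ v ∈ K, v ∈ normalizer (N : Set G) ∧ v ∉ N ∧ v * v ∈ N := by
  obtain ⟨P, hP, hNP⟩ := exists_isSylIn hN hK
  obtain ⟨t, ht, htN⟩ := SetLike.exists_of_lt (lt_inf_normalizer hP.isPGroup
    (lt_of_le_of_ne hNP fun e => h (e ▸ hP)))
  obtain ⟨n, hn⟩ := hP.isPGroup ⟨t, ht.1⟩
  have h1 : t ^ 2 ^ n ∈ N := by
    rw [show t ^ 2 ^ n = 1 by simpa using congrArg Subtype.val hn]; exact one_mem _
  clear hn
  induction n with
  | zero => exact absurd (by simpa using h1) htN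
  | succ n ih =>
    by_cases h2 : t ^ 2 ^ n ∈ N
    · exact ih h2
    · exact ⟨_, hP.le (pow_mem ht.1 _), pow_mem ht.2 _, h2, by rwa [← pow_two, ← pow_mul, ← pow_succ]⟩

theorem aut_lemma {K D : Subgroup G} {qs ds : List G} (hK : K ≤ normalizer (clos qs : Set G)) (hD : IsSylIn 2 D K)
    (hds : clos ds = D) {b : G} (hb : b ∈ K)
    (h1 : ∀ d ∈ ds, ∃ m ∈ D, ∀ q ∈ qs, b * (d * q * d⁻¹) * b⁻¹ = m * (b * q * b⁻¹) * m⁻¹)
    (h2 : ∃ m ∈ D, ∀ q ∈ qs, b * (b * q * b⁻¹) * b⁻¹ = m * q * m⁻¹) :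
    ∃ m ∈ D, ∀ q ∈ qs, b * q * b⁻¹ = m * q * m⁻¹ := by
  set C := K ⊓ centralizer (clos qs : Set G) with hC
  have hcen : ∀ g, (∀ q ∈ qs, q * g = g * q) → g ∈ centralizer (clos qs : Set G) := fun g hg =>
    mem_centralizer_iff.2 fun x hx => (mem_centralizer_singleton_iff.1
      ((clos_le (K := centralizer {g})).2 (fun q hq => mem_centralizer_singleton_iff.2 (hg q hq)) hx))
  have hKC : ∀ k ∈ K, ∀ c ∈ C, k * c * k⁻¹ ∈ C := fun k hk c hc =>
    ⟨mul_mem (mul_mem hk hc.1) (K.inv_mem hk),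
      eg2_conj (normalizer_le_normalizer_centralizer _ (hK hk)) hc.2⟩
  have hDC : D ≤ normalizer (C : Set G) := fun d hd => mem_normalizer_of_conj_mem (hKC d (hD.le hd))
  have hEK : D ⊔ C ≤ K := sup_le hD.le inf_le_left
  have hbE : b ∈ normalizer ((D ⊔ C : Subgroup G) : Set G) := by
    refine cj_eq_iff.1 (cj_eq_of_le ?_)
    rw [cj_sup]
    refine sup_le ?_ ((cj_le_iff.2 (hKC b hb)).trans le_sup_right)
    refine cj_le_iff.2 fun x hx => ?_
    refine (clos_le (K := (D ⊔ C).comap (MulAut.conj b).toMonoidHom)).2 (fun d hd => ?_)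
      (hds.ge hx)
    obtain ⟨m, hm, e⟩ := h1 d hd
    have hd' : d ∈ K := hD.le (hds.le (mem_clos hd))
    have h3 : b⁻¹ * (m⁻¹ * (b * d * b⁻¹)) * b ∈ C := ⟨mul_mem (mul_mem (K.inv_mem hb) (mul_mem
      (K.inv_mem (hD.le hm)) (mul_mem (mul_mem hb hd') (K.inv_mem hb)))) hb, hcen _ fun q hq => by
        calc q * (b⁻¹ * (m⁻¹ * (b * d * b⁻¹)) * b)
            = b⁻¹ * m⁻¹ * (m * (b * q * b⁻¹) * m⁻¹) * (b * d) := by group
          _ = b⁻¹ * (m⁻¹ * (b * d * b⁻¹)) * b * q := by rw [← e q hq]; group⟩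
    have h4 := mul_mem_sup hm (hKC b hb _ h3)
    simpa [mul_assoc] using h4
  have hb2 : b * b ∈ D ⊔ C := by
    obtain ⟨m, hm, e⟩ := h2
    have h3 : m⁻¹ * (b * b) ∈ C := ⟨mul_mem (K.inv_mem (hD.le hm)) (mul_mem hb hb),
      hcen _ fun q hq => by
        calc q * (m⁻¹ * (b * b)) = m⁻¹ * (m * q * m⁻¹) * (b * b) := by group
          _ = m⁻¹ * (b * b) * q := by rw [← e q hq]; group⟩
    simpa using mul_mem_sup hm h3
  have hz : zpowers b ≤ normalizer ((D ⊔ C : Subgroup G) : Set G) := zpowers_le.2 hbE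
  obtain ⟨a, ha, c, hc, e⟩ := (hD.mono (K := zpowers b ⊔ (D ⊔ C)) (le_sup_left.trans le_sup_right)
    (sup_le (zpowers_le.2 hb) hEK)).exists_mul_of_pow_mem le_sup_right
    (sup_le hz le_normalizer) (fun g hg => by
      obtain ⟨_, ⟨i, rfl⟩, c, hc, rfl⟩ := (mem_sup_iff_of_le_normalizer hz).1 hg
      refine ⟨1, ?_⟩
      have h3 := mul_mem (mul_mem (zpow_mem hb2 i)
        (eg2_conj (inv_mem (zpow_mem hbE i)) hc)) hc
      rw [← pow_two, ← zpow_natCast, ← zpow_mul, mul_comm _ i, zpow_mul, zpow_natCast, pow_two] at h3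
      simpa [pow_two, mul_assoc] using h3) (mem_sup_left (mem_zpowers b))
  obtain ⟨m, hm, c', hc', e'⟩ := (mem_sup_iff_of_le_normalizer hDC).1
    (e ▸ mul_mem (mem_sup_left ha) hc : b ∈ D ⊔ C)
  refine ⟨m, hm, fun q hq => ?_⟩
  rw [e', mul_assoc m, ← mem_centralizer_iff.1 hc'.2 q (mem_clos hq)]
  group

omit [Finite G] in
theorem Agr.mul' {Xs : List (Subgroup G)} {Ps : List (Subgroup G × Subgroup G)}
    (hP : ∀ p ∈ Ps, p.1 ∈ Xs ∧ p.2 ∈ Xs) {m u s : G} (hm : Agr Ps m 1) (hu : u ∈ KN Xs) (h : Agr Ps u s) :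
    Agr Ps (m * u) s := fun p hp x hx => by
  have := mul_mem (hm p hp _ (eg2_conj (hu _ (hP p hp).1) hx)) (h p hp x hx)
  simpa [mul_assoc] using this

/-- The elements of `KN Xs` acting trivially on the sections. -/
def K0 (Xs : List (Subgroup G)) (Ps : List (Subgroup G × Subgroup G))
    (hP : ∀ p ∈ Ps, p.1 ∈ Xs ∧ p.2 ∈ Xs) : Subgroup G where
  carrier := {g | g ∈ KN Xs ∧ Agr Ps g 1}
  one_mem' := ⟨one_mem _, fun p _ x _ => by simp⟩
  mul_mem' ha hb := ⟨mul_mem ha.1 hb.1, ha.2.mul' hP hb.1 hb.2⟩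
  inv_mem' {a} ha := ⟨inv_mem ha.1, fun p hp x hx => by
    have := eg2_conj (inv_mem (ha.1 _ (hP p hp).2)) (inv_mem (ha.2 p hp x hx))
    have h2 := inv_mem (eg2_conj (inv_mem (ha.1 _ (hP p hp).2))
      (ha.2 p hp _ (eg2_conj (inv_mem (ha.1 _ (hP p hp).1)) hx)))
    have h3 := eg2_conj (ha.1 _ (hP p hp).2) h2
    simpa [mul_assoc] using h3⟩

theorem frat_lemma {Xs : List (Subgroup G)} {Ps : List (Subgroup G × Subgroup G)}
    (hP : ∀ p ∈ Ps, p.1 ∈ Xs ∧ p.2 ∈ Xs) {N O : Subgroup G} (hN : IsSylIn 2 N (KN Xs)) (hO : O ≤ N)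
    (hc : Nat.card N = 2 * Nat.card O) (h0 : ∀ m ∈ O, Agr Ps m 1) {r : G} (hr : r ∈ N) (hr' : ¬ Agr Ps r 1) {s : G}
    (hs : s ∈ KN Xs) : ∃ u ∈ KN Xs, u ∈ normalizer (O : Set G) ∧ Agr Ps u s := by
  have hn : KN Xs ≤ normalizer (K0 Xs Ps hP : Set G) := fun g hg =>
    mem_normalizer_of_conj_mem fun a ha => ⟨mul_mem (mul_mem hg ha.1) (inv_mem hg),
      fun p hp x hx => by
        have := eg2_conj (hg _ (hP p hp).2) (ha.2 p hp _ (eg2_conj (inv_mem (hg _ (hP p hp).1)) hx))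
        simpa [mul_assoc] using this⟩
  have h1 := hN.inf_of_le_normalizer (K := K0 Xs Ps hP) (fun a ha => ha.1) hn
  have h2 : O ≤ N ⊓ K0 Xs Ps hP := fun m hm => ⟨hO hm, hN.le (hO hm), h0 m hm⟩
  have h3 : N ⊓ K0 Xs Ps hP = O := by
    obtain ⟨k, hk⟩ := card_dvd_of_le h2
    have h4 := card_lt_of_lt (lt_of_le_of_ne (inf_le_left (a := N) (b := K0 Xs Ps hP))
      fun e => hr' (e.ge hr).2.2)
    have h5 : 0 < Nat.card (N ⊓ K0 Xs Ps hP : Subgroup G) := Nat.card_pos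
    refine (eq_of_le_of_card_ge h2 ?_).symm
    rw [hk] at h4 h5 ⊢
    rw [hc, mul_comm 2] at h4
    have := Nat.lt_of_mul_lt_mul_left h4
    nlinarith
  rw [h3] at h1
  obtain ⟨k, hk, e⟩ := h1.frattini (hn hs)
  exact ⟨_, mul_mem hk.1 hs, e, hk.2.mul' hP hs fun p _ x _ => by simp⟩

set_option linter.unusedSectionVars false in
theorem Agr.mul {Xs : List (Subgroup G)} {Ps : List (Subgroup G × Subgroup G)}
    (hP : ∀ p ∈ Ps, p.1 ∈ Xs ∧ p.2 ∈ Xs) {m u s : G} (hm : Agr Ps m 1) (hu : u ∈ KN Xs) (h : Agr Ps u s) :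
    Agr Ps (m * u) s := hm.mul' hP hu h

set_option linter.unusedSectionVars false in
set_option linter.unusedVariables false in
/-- It is enough to test generators. -/
theorem agr_of_gens {xs ms : List G} {Z : Subgroup G} (hZ : clos xs ≤ normalizer (Z : Set G))
    (hm : clos ms ≤ normalizer (clos xs : Set G)) (hm' : clos ms ≤ normalizer (Z : Set G))
    (h : ∀ m ∈ ms, ∀ x ∈ xs, m * x * m⁻¹ * x⁻¹ ∈ Z) : ∀ m ∈ clos ms, ∀ x ∈ clos xs, m * x * m⁻¹ * x⁻¹ ∈ Z := by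
  have hP : ∀ p ∈ [(clos xs, Z)], p.1 ∈ [clos xs, Z] ∧ p.2 ∈ [clos xs, Z] := by simp
  intro m hmm x hx
  suffices key : clos ms ≤ K0 _ _ hP by simpa using (key hmm).2 (clos xs, Z) (by simp) x hx
  refine clos_le.2 fun a ha => ⟨?_, ?_⟩
  · intro X hX
    simp only [List.mem_cons, List.not_mem_nil, or_false] at hX
    rcases hX with rfl | rfl
    exacts [hm (mem_clos ha), hm' (mem_clos ha)]
  · intro p hp y hy
    obtain rfl : p = (clos xs, Z) := by simpa using hp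
    simp only [one_mul, inv_one, mul_one]
    induction hy using closure_induction with
    | mem y hy => exact h a ha y hy
    | one => simp
    | mul y z hy hz h1 h2 =>
      have := eg2_conj (hZ hy) h2
      have h3 := mul_mem h1 this
      simpa [mul_assoc] using h3
    | inv y hy h1 =>
      have := eg2_conj (inv_mem (hZ hy)) (inv_mem h1)
      simpa [mul_assoc] using this

theorem eg2_card {N : Subgroup G} (hN : IsSylIn 2 N ⊤) {n k : ℕ} (hc : Nat.card N = 2 ^ n) (hk : n < k) :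
    ¬ 2 ^ k ∣ Nat.card G := fun h => by
  have h1 := hN.not_dvd_relIndex
  rw [relIndex_top_right] at h1
  rw [← N.card_mul_index, hc] at h
  obtain ⟨j, rfl⟩ := Nat.exists_eq_add_of_lt hk
  rw [add_assoc, pow_add] at h
  exact h1 ((dvd_pow_self 2 (Nat.succ_ne_zero j)).trans (Nat.dvd_of_mul_dvd_mul_left (by positivity) h))

theorem bd_of_le {N : Subgroup G} (hN : IsSylIn 2 N ⊤) {n : ℕ} (hc : Nat.card N = 2 ^ n) (hn : n ≤ 10) : Bd G :=
  ⟨eg2_card hN hc (by omega), fun _ => eg2_card hN hc (by omega)⟩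

set_option linter.unusedVariables false in
theorem bd_of_transfer {N M : Subgroup G} (hN : IsSylIn 2 N ⊤) (hc : Nat.card N = 2 ^ 11) (hM : M ≤ N)
    (hc' : Nat.card M = 2 ^ 10) {x : G} (hx : x ∈ N) (hx2 : x * x = 1) (hxM : x ∉ M)
    (h : ∀ a ∈ M, ¬ IsConj x a) : Bd G := by
  refine ⟨eg2_card hN hc (by omega), fun h2 => ?_⟩
  have h1 := hN.not_dvd_relIndex
  rw [relIndex_top_right] at h1
  have h3 := card_mul_relIndex hM
  rw [hc, hc'] at h3
  rcases GT.Tr.thompson_transfer_index_two h1 (Q := M) (by omega) (u := x) (by rw [pow_two, hx2]) with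
    ⟨H, -, hH, -⟩ | ⟨g, hg⟩
  · exact absurd hH (h2 H)
  · exact absurd (isConj_iff.2 ⟨g, rfl⟩) (h _ hg)

/-- Orbit and stabiliser by counting. -/
theorem exists_transversal {M C : Subgroup G} {r : G} (hC : C ≤ M) (hCr : C ≤ centralizer {r}) {L : List G}
    (hL : ∀ τ ∈ L, τ ∈ M) (hn : (L.map fun τ => τ * r * τ⁻¹).Nodup) (hc : Nat.card M ≤ L.length * Nat.card C) :
    ∀ m ∈ M, ∃ τ ∈ L, τ⁻¹ * m ∈ C := by
  let f : Fin L.length × C → M := fun p => ⟨L.get p.1 * p.2, mul_mem (hL _ (List.get_mem ..)) (hC p.2.2)⟩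
  have hf : Function.Injective f := by
    rintro ⟨i, c⟩ ⟨j, d⟩ e
    have e1 : L.get i * c = L.get j * d := congrArg Subtype.val e
    have hr : ∀ c : C, (c : G) * r * (c : G)⁻¹ = r := fun c => by
      rw [mem_centralizer_singleton_iff.1 (hCr c.2), mul_inv_cancel_right]
    have e2 : L.get i * r * (L.get i)⁻¹ = L.get j * r * (L.get j)⁻¹ := by
      calc L.get i * r * (L.get i)⁻¹ = L.get i * c * r * (L.get i * c)⁻¹ := by
            conv_lhs => rw [← hr c]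
            group
        _ = L.get j * r * (L.get j)⁻¹ := by
            rw [e1]
            conv_rhs => rw [← hr d]
            group
    have e3 : i = j := by
      have := List.nodup_iff_injective_get.1 hn (a₁ := i.cast (by simp)) (a₂ := j.cast (by simp))
        (by simpa using e2)
      exact Fin.ext (by simpa using congrArg Fin.val this)
    subst e3
    exact Prod.ext rfl (Subtype.ext (mul_left_cancel e1))
  have hb := hf.bijective_of_nat_card_le (by simpa using hc)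
  intro m hm
  obtain ⟨⟨i, c⟩, e⟩ := hb.2 ⟨m, hm⟩
  refine ⟨L.get i, List.get_mem .., ?_⟩
  rw [← show L.get i * c = m from congrArg Subtype.val e, inv_mul_cancel_left]
  exact c.2

end Cfsg.Agent.L33
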