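import Mathlib
import Cfsg.Agent.L33.Defs
import Cfsg.Agent.GT.PComponents
import Cfsg.Agent.Cl.LinearBasic
import Cfsg.Agent.Inv.SylowElt

/-!
The component is normal in the centraliser; passage to a normal simple subgroup.
-/

set_option autoImplicit false

namespace Cfsg.Agent.L33

open Cfsg.Agent.Rec Cfsg.Agent.Inv.Fz Subgroup
open scoped commutatorElement

variable {G : Type*} [Group G]

namespace FrAAux

theorem ncyc [Finite G] [IsSimpleGroup G] (hG : ¬ IsMulCommutative G) (h2 : 2 ∣ Nat.card G)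
    (S : Sylow 2 G) : ¬ IsCyclic S := by
  intro hS
  have hm : (Nat.card G).minFac = 2 := (Nat.minFac_eq_two_iff _).2 h2
  have hc := IsCyclic.isComplement' hm hS
  rcases (MonoidHom.normal_ker (MonoidHom.transferSylow S (hS.normalizer_le_centralizer hm))).eq_bot_or_eq_top
    with h | h
  · rw [h, isComplement'_bot_left] at hc
    apply hG
    have : IsCyclic (⊤ : Subgroup G) := hc ▸ hS
    have : IsCyclic G := isCyclic_of_surjective topEquiv topEquiv.surjective
    infer_instance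
  · rw [h, isComplement'_top_left] at hc
    exact S.ne_bot_of_dvd_card h2 hc

theorem simple_L3 : IsSimpleGroup L3 := Cl.psl_fin_isSimpleGroup (by norm_num) (by norm_num)

theorem card_L3 : Nat.card L3 = 5616 := by
  have h := Cl.card_psl_mul (ι := Fin 3) (F := ZMod 3)
  rw [Cl.card_sl_three, Nat.card_zmod, Fintype.card_fin] at h
  generalize Nat.card L3 = n at h ⊢
  norm_num at h
  exact h

theorem ncomm_L3 : ¬ IsMulCommutative L3 := by
  intro h
  have := simple_L3
  have hp : (Nat.card L3).Prime :=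
    @IsSimpleGroup.prime_card L3 { (inferInstance : Group L3) with mul_comm := h.is_comm.comm } _
  rw [card_L3] at hp
  norm_num at hp

theorem center_L3 (x : L3) (h : ∀ y, x * y = y * x) : x = 1 := by
  have := simple_L3
  rcases (inferInstance : (center L3).Normal).eq_bot_or_eq_top with hc | hc
  · have : x ∈ center L3 := mem_center_iff.2 fun y => (h y).symm
    rwa [hc, mem_bot] at this
  · exfalso
    refine ncomm_L3 ⟨⟨fun a b => ?_⟩⟩
    have : b ∈ center L3 := hc ▸ mem_top b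
    exact mem_center_iff.1 this a

theorem ncyc_of_surj [Finite G] (π : G →* L3) (hπ : Function.Surjective π) (P : Sylow 2 G) :
    ¬ IsCyclic P := by
  intro hP
  have := simple_L3
  refine ncyc ncomm_L3 (by rw [card_L3]; norm_num) (P.mapSurjective hπ) ?_
  exact isCyclic_of_surjective (π.subgroupMap P) (π.subgroupMap_surjective P)

theorem inv_eq [Finite G] {T : Subgroup G} (hT : IsCyclic T) {x y : G} (hx : x ∈ T) (hy : y ∈ T)
    (h1 : orderOf x = 2) (h2 : orderOf y = 2) : x = y := by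
  classical
  have := Fintype.ofFinite T
  have hc := IsCyclic.card_orderOf_eq_totient (α := T) (d := 2)
    (h1 ▸ (orderOf_coe (⟨x, hx⟩ : T)) ▸ orderOf_dvd_card)
  rw [Nat.totient_two, Finset.card_eq_one] at hc
  obtain ⟨a, ha⟩ := hc
  have e1 : (⟨x, hx⟩ : T) ∈ ({a} : Finset T) := by
    rw [← ha, Finset.mem_filter, ← orderOf_coe]; exact ⟨Finset.mem_univ _, h1⟩
  have e2 : (⟨y, hy⟩ : T) ∈ ({a} : Finset T) := by
    rw [← ha, Finset.mem_filter, ← orderOf_coe]; exact ⟨Finset.mem_univ _, h2⟩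
  rw [Finset.mem_singleton] at e1 e2
  exact congrArg Subtype.val (e1.trans e2.symm)

theorem normal_of_comp {H : Type*} [Group H] [Finite H] (L : Subgroup H) (hL : Cfsg.IsPComponent 2 L)
    (π : L →* L3) (hπ : Function.Surjective π)
    (hc : ∀ P : Subgroup H, IsPGroup 2 P →
      (∀ g ∈ P, ∀ l ∈ L, ∃ o ∈ Cfsg.oddCore L, g * l * g⁻¹ = l * o) → IsCyclic P) :
    ∀ h : H, ∀ l ∈ L, h * l * h⁻¹ ∈ L := by
  intro h
  by_cases he : L = L.map (MulAut.conj h).toMonoidHom
  · intro l hl
    rw [he]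
    exact ⟨l, hl, rfl⟩
  exfalso
  have hcm := hL.commutator_le_of_ne Nat.prime_two (hL.map_conj Nat.prime_two h) he
  obtain ⟨P0⟩ : Nonempty (Sylow 2 L) := inferInstance
  let f : L →* H := (MulAut.conj h).toMonoidHom.comp L.subtype
  have hf : Function.Injective f := (MulAut.conj h).injective.comp Subtype.val_injective
  have hcy := hc ((P0 : Subgroup L).map f) (P0.isPGroup'.map f) (by
    rintro _ ⟨x, -, rfl⟩ l hl
    have hm : ⁅l⁻¹, f x⁆ ∈ GT.pPrimeCoreOf 2 L :=
      hcm (commutator_mem_commutator (inv_mem hl) ⟨x, x.2, rfl⟩)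
    obtain ⟨o, ho, hoe⟩ := hm
    refine ⟨o, ho, ?_⟩
    have : (o : H) = ⁅l⁻¹, f x⁆ := hoe
    rw [this, commutatorElement_def]
    group)
  exact ncyc_of_surj π hπ P0
    (isCyclic_of_surjective ((P0 : Subgroup L).equivMapOfInjective f hf).symm (MulEquiv.surjective _))

end FrAAux

open FrAAux

theorem hyp_of_comp [Finite G] (t : G) (ht : orderOf t = 2) (L : Subgroup (centralizer ({t} : Set G)))
    (hL : Cfsg.IsPComponent 2 L) {F : Type*} [Field F] [Fintype F] (hF3 : Fintype.card F = 3)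
    (hLX : Nonempty ((L ⧸ Cfsg.oddCore L) ≃* Matrix.ProjectiveSpecialLinearGroup (Fin 3) F))
    (hc : ∀ P : Subgroup (centralizer ({t} : Set G)), IsPGroup 2 P →
      (∀ g ∈ P, ∀ l ∈ L, ∃ o ∈ Cfsg.oddCore L, g * (l : centralizer ({t} : Set G)) * g⁻¹ = l * o) → IsCyclic P) :
    ∃ (M : Subgroup G) (π : M →* L3), Hyp t M π := by
  obtain ⟨e0⟩ := hLX
  have e1 : ZMod 3 ≃+* F := ZMod.ringEquivOfPrime F Nat.prime_three hF3
  let e : (L ⧸ Cfsg.oddCore L) ≃* L3 := e0.trans (Cl.pslMapEquiv (Fin 3) e1.symm)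
  let π0 : L →* L3 := e.toMonoidHom.comp (QuotientGroup.mk' _)
  have hπ0 : Function.Surjective π0 := e.surjective.comp (QuotientGroup.mk'_surjective _)
  have hk0 : ∀ x : L, π0 x = 1 ↔ x ∈ Cfsg.oddCore L := fun x => by
    change e (QuotientGroup.mk x) = 1 ↔ _
    rw [e.map_eq_one_iff, QuotientGroup.eq_one_iff]
  have hn := normal_of_comp L hL π0 hπ0 hc
  let j : L ≃* L.map (centralizer ({t} : Set G)).subtype :=
    L.equivMapOfInjective _ (subtype_injective _)
  have hj : ∀ x : L, (j x : G) = ((x : centralizer ({t} : Set G)) : G) := fun x => rfl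
  refine ⟨L.map (centralizer ({t} : Set G)).subtype, π0.comp j.symm.toMonoidHom, ht,
    map_subtype_le _, ?_, hπ0.comp j.symm.surjective, ?_, ?_⟩
  · rintro g hg _ ⟨l, hl, rfl⟩
    exact ⟨_, hn ⟨g, hg⟩ l hl, rfl⟩
  · have : (π0.comp j.symm.toMonoidHom).ker = (Cfsg.oddCore L).map j.toMonoidHom := by
      ext x
      obtain ⟨y, rfl⟩ := j.surjective x
      rw [MonoidHom.mem_ker]
      refine Iff.trans ?_ (mem_map_iff_mem (f := j.toMonoidHom) j.injective).symm
      rw [← hk0]
      simp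
    rw [this, card_map_of_injective (f := j.toMonoidHom) j.injective]
    exact GT.odd_card_oddCore
  · intro P hP h2 hact
    have hcy := hc (P.subgroupOf _) (h2.of_equiv (subgroupOfEquivOfLe hP).symm) (by
      intro g hg l hl
      have h1 := hact g hg (j ⟨l, hl⟩) (j ⟨_, hn g l hl⟩) (by rw [hj, hj]; rfl)
      have h3 : π0 ⟨_, hn g l hl⟩ = π0 ⟨l, hl⟩ := by simpa using h1
      refine ⟨(⟨l, hl⟩ : L)⁻¹ * ⟨_, hn g l hl⟩, (hk0 _).1 (by rw [map_mul, map_inv, h3, inv_mul_cancel]), ?_⟩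
      simp)
    exact isCyclic_of_surjective (subgroupOfEquivOfLe hP) (MulEquiv.surjective _)

theorem Hyp.restrict [Finite G] {t : G} {L : Subgroup G} {π : L →* L3} (h : Hyp t L π) (X : Subgroup G) [X.Normal]
    [IsSimpleGroup X] (hX : ¬ IsMulCommutative X) (ht : t ∈ X) :
    ∃ (M : Subgroup X) (π' : M →* L3), Hyp (⟨t, ht⟩ : X) M π' := by
  have hXn : X.Normal := inferInstance
  have := simple_L3
  have ht2 : orderOf (⟨t, ht⟩ : X) = 2 := by rw [← orderOf_coe]; exact h.t2
  have hcen : ∀ g : X, g ∈ centralizer ({⟨t, ht⟩} : Set X) → (g : G) ∈ centralizer ({t} : Set G) := by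
    intro g hg
    rw [mem_centralizer_singleton_iff] at hg ⊢
    exact congrArg Subtype.val hg
  have hcyc : ∀ P : Subgroup X, P ≤ centralizer {⟨t, ht⟩} → IsPGroup 2 P →
      (∀ g ∈ P, ∀ l l' : L, (l' : G) = g * l * (g : G)⁻¹ → π l' = π l) → IsCyclic P := by
    intro P hP h2 hact
    have hcy := h.cyc (P.map X.subtype) (by rintro _ ⟨g, hg, rfl⟩; exact hcen g (hP hg)) (h2.map _) (by
      rintro _ ⟨g, hg, rfl⟩ l l' hl
      exact hact g hg l l' hl)
    exact isCyclic_of_surjective (P.equivMapOfInjective _ (subtype_injective X)).symm (MulEquiv.surjective _)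
  rcases (Normal.map (inferInstance : (X.subgroupOf L).Normal) π h.surj).eq_bot_or_eq_top with hb | htop
  · exfalso
    have hall : ∀ P : Subgroup X, P ≤ centralizer {⟨t, ht⟩} → IsPGroup 2 P → IsCyclic P := by
      intro P hP h2
      refine hcyc P hP h2 fun g _ l l' hl => ?_
      have hm : l' * l⁻¹ ∈ X.subgroupOf L := by
        rw [mem_subgroupOf, coe_mul, coe_inv, hl, mul_assoc, mul_assoc]
        refine mul_mem g.2 ?_
        rw [← mul_assoc]
        exact hXn.conj_mem _ (inv_mem g.2) _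
      have h1 : π (l' * l⁻¹) ∈ (X.subgroupOf L).map π := ⟨_, hm, rfl⟩
      rwa [hb, mem_bot, map_mul, map_inv, mul_inv_eq_one] at h1
    have hz : IsPGroup 2 (zpowers (⟨t, ht⟩ : X)) :=
      IsPGroup.of_card (n := 1) (by rw [Nat.card_zpowers, ht2, pow_one])
    obtain ⟨R, hR⟩ := hz.exists_le_sylow
    have htR : (⟨t, ht⟩ : X) ∈ (R : Subgroup X) := hR (mem_zpowers _)
    have h2 : 2 ∣ Nat.card X := ht2 ▸ orderOf_dvd_natCard _
    obtain ⟨y, hyR, hy2, hyc⟩ := Inv.exists_central_of_isPGroup R.isPGroup' (R.ne_bot_of_dvd_card h2)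
    have hty : (⟨t, ht⟩ : X) = y :=
      inv_eq (hall ((R : Subgroup X) ⊓ centralizer {⟨t, ht⟩}) inf_le_right (R.isPGroup'.to_le inf_le_left))
        ⟨htR, mem_centralizer_singleton_iff.2 rfl⟩
        ⟨hyR, mem_centralizer_singleton_iff.2 (hyc _ htR).eq.symm⟩ ht2 hy2
    refine ncyc hX h2 R (hall R (fun x hx => ?_) R.isPGroup')
    rw [mem_centralizer_singleton_iff, hty]
    exact (hyc x hx).eq
  · have hs : ∀ y : L3, ∃ x : L, (x : G) ∈ X ∧ π x = y := fun y => by
      obtain ⟨x, hx, rfl⟩ : y ∈ (X.subgroupOf L).map π := htop ▸ mem_top y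
      exact ⟨x, hx, rfl⟩
    let ι : L.comap X.subtype →* L := X.subtype.subgroupComap L
    have hι : Function.Injective ι := fun a b hab =>
      Subtype.ext (Subtype.ext (congrArg (fun x : L => (x : G)) hab))
    refine ⟨L.comap X.subtype, π.comp ι, ht2, ?_, ?_, ?_, ?_, ?_⟩
    · intro x hx
      have := mem_centralizer_singleton_iff.1 (h.le hx)
      rw [mem_centralizer_singleton_iff]
      exact Subtype.ext this
    · intro g hg l hl
      exact h.nor g (hcen g hg) l hl
    · intro y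
      obtain ⟨x, hx, rfl⟩ := hs y
      exact ⟨⟨⟨x, hx⟩, x.2⟩, rfl⟩
    · have hd : Nat.card (π.comp ι).ker ∣ Nat.card π.ker := by
        rw [← card_map_of_injective (K := (π.comp ι).ker) hι]
        apply card_dvd_of_le
        rintro _ ⟨x, hx, rfl⟩
        exact hx
      exact h.odd.of_dvd_nat hd
    · intro P hP h2 hact
      refine hcyc P hP h2 fun g hg l l' hl => ?_
      have hgc := hcen g (hP hg)
      have key : ∀ x : L, (x : G) ∈ X → π ⟨g * x * (g : G)⁻¹, h.nor g hgc x x.2⟩ = π x := by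
        intro x hx
        exact hact g hg ⟨⟨x, hx⟩, x.2⟩ ⟨g * ⟨x, hx⟩ * g⁻¹, h.nor g hgc x x.2⟩ rfl
      have hone : (π l)⁻¹ * π l' = 1 := by
        refine center_L3 _ fun y => ?_
        obtain ⟨x, hx, rfl⟩ := hs y
        have k1 := key x hx
        have k2 := key (l * x * l⁻¹) (hXn.conj_mem _ hx _)
        have k3 : (⟨g * (l * x * l⁻¹ : L) * (g : G)⁻¹, h.nor g hgc _ (l * x * l⁻¹).2⟩ : L) =
            l' * ⟨g * x * (g : G)⁻¹, h.nor g hgc x x.2⟩ * l'⁻¹ := by
          apply Subtype.ext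
          simp only [coe_mul, coe_inv, hl]
          group
        rw [k3, map_mul, map_mul, map_mul, map_mul, map_inv, map_inv, k1] at k2
        calc (π l)⁻¹ * π l' * π x = (π l)⁻¹ * (π l' * π x * (π l')⁻¹) * π l' := by group
          _ = π x * ((π l)⁻¹ * π l') := by rw [k2]; group
      exact (inv_mul_eq_one.1 hone).symm

end Cfsg.Agent.L33
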