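import Mathlib
import Cfsg.Agent.L33.Defs

/-!
Lifting the letters along a homomorphism whose kernel has cyclic Sylow `2`-subgroups.
-/

set_option autoImplicit false
set_option linter.unusedSectionVars false

namespace Cfsg.Agent.L33.FrC

open Cfsg.Agent.Rec Cfsg.Agent.Inv.Fz Subgroup

local instance : Fact (Nat.Prime 2) := ⟨Nat.prime_two⟩

variable {H A : Type*} [Group H] [Group A]

theorem sylIn_map [Finite H] {π : H →* A} {Y B : Subgroup H} (hY : IsSylIn 2 Y B) :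
    IsSylIn 2 (Y.map π) (B.map π) := by
  have := isSylIn_map_subtype (hY.toSylow.mapSurjective (π.subgroupMap_surjective B))
  rwa [Sylow.coe_mapSurjective, map_map, show (B.map π).subtype.comp (π.subgroupMap B) =
    π.comp B.subtype from rfl, ← map_map, IsSylIn.coe_toSylow, map_subgroupOf_eq_of_le hY.le] at this

/-- The elements of odd order of a group with cyclic Sylow `2`-subgroups. -/
theorem exists_odd [Finite H] (D : Subgroup H) (he : Even (Nat.card D))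
    (hc : ∀ P : Subgroup H, P ≤ D → IsPGroup 2 P → IsCyclic P) :
    ∃ O : Subgroup H, ∀ d, d ∈ O ↔ d ∈ D ∧ Odd (orderOf d) := by
  obtain ⟨P⟩ : Nonempty (Sylow 2 D) := inferInstance
  have h1 := hc ((P : Subgroup D).map D.subtype) (map_subtype_le _) (P.isPGroup'.map _)
  have hP : IsCyclic P := isCyclic_of_surjective _
    ((P : Subgroup D).equivMapOfInjective D.subtype Subtype.val_injective).symm.surjective
  have hm : (Nat.card D).minFac = 2 := (Nat.minFac_eq_two_iff _).2 he.two_dvd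
  have hN := hP.normalizer_le_centralizer hm
  let f := MonoidHom.transferSylow P hN
  have hf : ∀ d : D, d ∈ f.ker ↔ Odd (orderOf d) := fun d => by
    refine ⟨fun hd => ?_, fun hd => ?_⟩
    · rw [← Nat.not_even_iff_odd, even_iff_two_dvd]
      exact fun e => MonoidHom.not_dvd_card_ker_transferSylow P hN
        (e.trans (f.ker.orderOf_dvd_natCard hd))
    · obtain ⟨k, hk⟩ := IsPGroup.iff_orderOf.1 P.isPGroup' (f d)
      have h2 := orderOf_map_dvd f d
      rw [hk] at h2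
      rw [MonoidHom.mem_ker, ← orderOf_eq_one_iff, hk]
      exact Nat.Coprime.eq_one_of_dvd ((Nat.coprime_two_left.2 hd).pow_left k) h2
  refine ⟨f.ker.map D.subtype, fun d => ⟨?_, fun h => ⟨⟨d, h.1⟩, (hf _).2 (by
    rw [← Subgroup.orderOf_coe]; exact h.2), rfl⟩⟩⟩
  rintro ⟨d, hd, rfl⟩
  exact ⟨d.2, by simpa using (hf d).1 hd⟩

theorem pg_zpowers {x : A} {n : ℕ} (h : x ^ 2 ^ n = 1) : IsPGroup 2 (zpowers x) := by
  rintro ⟨_, k, rfl⟩
  exact ⟨n, Subtype.ext (by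
    change (x ^ k) ^ 2 ^ n = 1
    rw [← zpow_natCast, ← zpow_mul, mul_comm, zpow_mul, zpow_natCast, h, one_zpow])⟩

theorem mem_cases {x y : A} (h : x * x = 1) (hy : y ∈ zpowers x) : y = 1 ∨ y = x := by
  obtain ⟨k, rfl⟩ := hy
  have h2 : x ^ (2 : ℤ) = 1 := by rw [zpow_two, h]
  obtain ⟨m, rfl | rfl⟩ := Int.even_or_odd' k
  · exact Or.inl (by simp only [zpow_mul, h2, one_zpow])
  · exact Or.inr (by simp only [zpow_add, zpow_mul, h2, one_zpow, one_mul, zpow_one])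

section SD

variable [Finite A] {κ : Bool} {a d f σ ρ : A} (h : Let κ a d f σ ρ)
include h

theorem norm_a : zpowers d ≤ normalizer (zpowers a : Set A) :=
  zpowers_le.2 (mem_normalizer_fintype (by
    rintro _ ⟨k, rfl⟩
    beta_reduce
    rw [← conj_zpow, h.da]
    exact zpow_mem (pow_mem (mem_zpowers a) 3) k))

theorem T_le : clos [a, d] ≤ zpowers d ⊔ zpowers a :=
  clos_le.2 (by simp [mem_sup_left (mem_zpowers d), mem_sup_right (mem_zpowers a)])

theorem pg_T : IsPGroup 2 (clos [a, d]) :=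
  ((pg_zpowers (n := 1) (by simpa [sq] using h.d2)).to_sup_of_normal_right'
    (pg_zpowers (n := 3) h.a8) (norm_a h)).to_le (T_le h)

theorem conj_ne {x : A} (hx : x ∈ clos [a, d]) : x * a * x⁻¹ ≠ a ^ 5 := fun e => by
  obtain ⟨y, hy, _, ⟨k, rfl⟩, rfl⟩ := (mem_sup_iff_of_le_normalizer (norm_a h)).1 (T_le h hx)
  have e' : y * a * y⁻¹ = a ^ 5 := by rw [← e]; group
  rcases mem_cases h.d2 hy with rfl | rfl
  · exact h.a4 (mul_left_cancel (a := a) (by rw [← pow_succ', ← e']; group))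
  · rw [h.da] at e'
    have : a ^ 2 = 1 := mul_left_cancel (a := a ^ 3) (by rw [← pow_add, ← e', mul_one])
    exact h.a4 (by rw [show a ^ 4 = (a ^ 2) ^ 2 by group, this, one_pow])

theorem norm_T : zpowers f ≤ normalizer (clos [a, d] : Set A) :=
  zpowers_le.2 (mem_normalizer_fintype (conj_clos_mem (by
    simp only [List.mem_cons, List.not_mem_nil, or_false, forall_eq_or_imp, forall_eq, h.fd]
    refine ⟨?_, mem_clos (by simp)⟩
    cases κ
    · rw [h.f0 rfl, one_mul, inv_one, mul_one]; exact mem_clos (by simp)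
    · rw [h.fa rfl]; exact pow_mem (mem_clos (by simp)) 5)))

theorem pg_fT (f2 : f * f = 1) : IsPGroup 2 (zpowers f ⊔ clos [a, d] : Subgroup A) :=
  (pg_zpowers (n := 1) (by simpa [sq] using f2)).to_sup_of_normal_right' (pg_T h) (norm_T h)

theorem syl_T {I : Subgroup A} (ha : a ∈ I) (hd : d ∈ I) (hI : ¬ 32 ∣ Nat.card I) :
    IsSylIn 2 (clos [a, d]) I := by
  refine isSylIn_of_card_le (clos_le.2 (by simp [ha, hd])) (pg_T h) fun Q hQ hQI _ => ?_
  obtain ⟨m, hm⟩ := hQ.exists_card_eq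
  obtain ⟨n, hn⟩ := (pg_T h).exists_card_eq
  have h1 : m < 5 := not_le.1 fun e =>
    hI ((pow_dvd_pow 2 e).trans (hm ▸ card_dvd_of_le hQI : 2 ^ m ∣ _))
  have h2 : zpowers a < clos [a, d] := by
    refine lt_of_le_of_ne (zpowers_le.2 (mem_clos (by simp))) fun e => ?_
    obtain ⟨k, hk⟩ : d ∈ zpowers a := e ▸ mem_clos (by simp)
    have h3 := h.da
    rw [← hk] at h3
    have : a ^ 2 = 1 := mul_left_cancel (a := a) (by rw [← pow_succ', ← h3]; group)
    exact h.a4 (by rw [show a ^ 4 = (a ^ 2) ^ 2 by group, this, one_pow])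
  have h3 : 2 ^ 3 < 2 ^ n := by
    have := card_lt_of_lt h2
    rwa [hn, Nat.card_zpowers, orderOf_eq_prime_pow (p := 2) (n := 2) h.a4 h.a8] at this
  rw [hm, hn]
  exact Nat.pow_le_pow_right two_pos (by have := (Nat.pow_lt_pow_iff_right one_lt_two).1 h3; omega)

end SD

section Lift

variable [Finite H] {φ : H →* A} {S K O : Subgroup H}

theorem inj (hS : IsPGroup 2 S) (hK : ∀ x ∈ K, φ x = 1 → Odd (orderOf x)) {x y : H} (hx : x ∈ S)
    (hy : y ∈ S) (hxy : x * y⁻¹ ∈ K) (e : φ x = φ y) : x = y := by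
  obtain ⟨k, hk⟩ := hS ⟨_, mul_mem hx (inv_mem hy)⟩
  exact mul_inv_eq_one.1 (mem_bot.1 (mem_of_pow_two_pow_mem (hK _ hxy (by simp [e])) (k := k)
    (mem_bot.2 (congrArg Subtype.val hk))))

theorem ker_eq [O.Normal] (hS : IsSylIn 2 S ⊤) (hO : ∀ x, x ∈ O ↔ x ∈ φ.ker ∧ Odd (orderOf x))
    {c : H} (hc : φ c = 1) : ∃ s ∈ S ⊓ φ.ker, ∃ o ∈ O, c = s * o :=
  (hS.inf_of_le_normalizer le_top le_normalizer_of_normal).exists_mul_of_pow_mem
    (fun x hx => ((hO x).1 hx).1) le_normalizer_of_normal (fun g hg => by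
      obtain ⟨k, hk⟩ := exists_pow_odd g
      exact ⟨k, (hO _).2 ⟨pow_mem hg _, hk⟩⟩) hc

/-- The Frattini argument. -/
theorem lift [Finite A] [O.Normal] [K.Normal] (hS : IsSylIn 2 S ⊤)
    (hO : ∀ x, x ∈ O ↔ x ∈ φ.ker ∧ Odd (orderOf x)) (hOK : O ≤ K)
    (hK : ∀ x ∈ K, φ x = 1 → Odd (orderOf x)) {Y : Subgroup A} (hY : Y ≤ S.map φ) {τ : A}
    (hτ : τ ∈ K.map φ) (hn : ∀ y ∈ Y, τ * y * τ⁻¹ ∈ Y) :
    ∃ g : H, ∀ x ∈ S, φ x ∈ Y → ∀ y ∈ S, x * y⁻¹ ∈ K → τ * φ x * τ⁻¹ = φ y → g * x * g⁻¹ = y := by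
  obtain ⟨g, hg, rfl⟩ := hτ
  have h1 : ∀ n ∈ Y.comap φ, ∃ y ∈ S ⊓ Y.comap φ, ∃ o ∈ O, n = y * o := fun n hn => by
    obtain ⟨s, hs, e⟩ := hY hn
    obtain ⟨s', hs', o, ho, e'⟩ := ker_eq hS hO (c := s⁻¹ * n) (by simp [e])
    refine ⟨s * s', ⟨mul_mem hs hs'.1, ?_⟩, o, ho, by rw [mul_assoc, ← e', mul_inv_cancel_left]⟩
    change φ (s * s') ∈ Y
    rwa [map_mul, show φ s' = 1 from hs'.2, mul_one, e]
  have h2 : IsSylIn 2 (S ⊓ Y.comap φ) (Y.comap φ) := by
    refine ⟨inf_le_right, hS.isPGroup.to_inf_left, fun R hR hRY hle => le_antisymm (fun r hr => ?_) hle⟩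
    obtain ⟨y, hy, o, ho, e⟩ := h1 r (hRY hr)
    rwa [inj hR hK hr (hle hy) (by
      rw [e]; exact (inferInstance : K.Normal).conj_mem o (hOK ho) y)
      (by rw [e, map_mul, show φ o = 1 from ((hO o).1 ho).1, mul_one])]
  obtain ⟨n, hn', e⟩ := h2.frattini (g := g) (mem_normalizer_fintype fun x hx => by
    change φ (g * x * g⁻¹) ∈ Y
    simpa using hn _ hx)
  obtain ⟨y, hy, o, ho, rfl⟩ := h1 n hn'
  have h3 : o * g ∈ normalizer ((S ⊓ Y.comap φ : Subgroup H) : Set H) := by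
    simpa [mul_assoc] using mul_mem (inv_mem (le_normalizer hy)) e
  refine ⟨o * g, fun x hx hxY x' hx' hxx e' =>
    inj hS.isPGroup hK (conj_mem_of_mem_norm h3 ⟨hx, hxY⟩).1 hx' ?_ ?_⟩
  · have := mul_mem (mul_mem (mul_mem (hOK ho) hg)
      ((inferInstance : K.Normal).conj_mem _ (inv_mem (mul_mem (hOK ho) hg)) x)) hxx
    simpa [mul_assoc] using this
  · simp [show φ o = 1 from ((hO o).1 ho).1, e']

theorem pre_of [Finite A] [O.Normal] [K.Normal] (hO : ∀ x, x ∈ O ↔ x ∈ φ.ker ∧ Odd (orderOf x))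
    (hOK : O ≤ K) (hK : ∀ x ∈ K, φ x = 1 → Odd (orderOf x))
    (cyc : ∀ P : Subgroup H, P ≤ φ.ker → IsPGroup 2 P → IsCyclic P) {t : H} (ht : orderOf t = 2)
    (htc : ∀ g, g * t * g⁻¹ = t) (hφt : φ t = 1) {κ : Bool} {a d f σ ρ : A} (h : Let κ a d f σ ρ)
    (f2 : f * f = 1) (hf : f ∈ φ.range) (hcov : ∀ x, φ x ∈ K.map φ ∨ φ x * f⁻¹ ∈ K.map φ)
    (hT : IsSylIn 2 (clos [a, d]) (K.map φ)) (hσ : σ ∈ K.map φ) (hρ : ρ ∈ K.map φ) :
    ∃ q a d f σ ρ, Pre κ t q a d f σ ρ K := by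
  have hKn : K.Normal := inferInstance
  obtain ⟨S, hS, hP⟩ : ∃ S : Subgroup H, IsSylIn 2 S ⊤ ∧ zpowers f ⊔ clos [a, d] ≤ S.map φ := by
    obtain ⟨S₀⟩ : Nonempty (Sylow 2 H) := inferInstance
    obtain ⟨_, ⟨g, -, rfl⟩, hg⟩ := (sylIn_map (π := φ) (isSylIn_top S₀)).exists_cj_le (pg_fT h f2)
      (sup_le (zpowers_le.2 (φ.range_eq_map ▸ hf)) (hT.le.trans (map_mono le_top)))
    refine ⟨cj g⁻¹ S₀, (isSylIn_top S₀).of_card_ge (isPGroup_cj S₀.isPGroup' _) le_top
      (card_cj _ _).ge, fun x hx => ?_⟩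
    obtain ⟨s, hs, e⟩ := cj_le_iff.1 hg x hx
    exact ⟨g⁻¹ * s * g, mem_cj.2 (by rwa [show g⁻¹⁻¹ * (g⁻¹ * s * g) * g⁻¹ = s by group]),
      by simp [e, mul_assoc]⟩
  have h1 : S.map φ ⊓ K.map φ = clos [a, d] :=
    hT.eq_of_le (hS.isPGroup.map φ).to_inf_left inf_le_right (le_inf (le_sup_right.trans hP) hT.le)
  have h2 : clos [a, d] = (S ⊓ K).map φ := by
    refine (sylIn_map (hS.inf_of_le_normalizer le_top le_normalizer_of_normal)).eq_of_le hT.isPGroup
      hT.le (h1 ▸ le_inf (map_mono inf_le_left) (map_mono inf_le_right))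
  obtain ⟨a, ⟨aS, aK⟩, rfl⟩ : a ∈ (S ⊓ K).map φ := h2 ▸ mem_clos (by simp)
  obtain ⟨d, ⟨dS, dK⟩, rfl⟩ : d ∈ (S ⊓ K).map φ := h2 ▸ mem_clos (by simp)
  obtain ⟨f, fS, rfl, f0⟩ : ∃ f' ∈ S, φ f' = f ∧ (κ = false → f' = 1) := by
    cases κ
    · exact ⟨1, one_mem _, by rw [h.f0 rfl, map_one], fun _ => rfl⟩
    · obtain ⟨f', h1, h2⟩ := hP (mem_sup_left (mem_zpowers f))
      exact ⟨f', h1, h2, by simp⟩
  obtain ⟨q, hq⟩ : ∃ q, zpowers q = S ⊓ φ.ker :=
    (Subgroup.isCyclic_iff_exists_zpowers_eq_top _).1 (cyc _ inf_le_right hS.isPGroup.to_inf_left)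
  obtain ⟨qS, q1⟩ : q ∈ S ⊓ φ.ker := hq ▸ mem_zpowers q
  replace q1 : φ q = 1 := q1
  replace qS : q ∈ S := qS
  replace aS : a ∈ S := aS
  replace dS : d ∈ S := dS
  replace aK : a ∈ K := aK
  replace dK : d ∈ K := dK
  have hTK : clos [a, d] ≤ S ⊓ K := clos_le.2 (by simp [aS, aK, dS, dK])
  have hin : ∀ {x y}, x ∈ S → y ∈ S → x ∈ K → y ∈ K → φ x = φ y → x = y :=
    fun hx hy hx' hy' => inj hS.isPGroup hK hx hy (mul_mem hx' (inv_mem hy'))
  have h3 : ∀ x ∈ S, φ x ∈ K.map φ → ∃ y ∈ clos [a, d], φ y = φ x := fun x hx hx' => by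
    have : φ x ∈ (clos [a, d]).map φ := by
      rw [map_clos]; exact h1.le ⟨mem_map_of_mem _ hx, hx'⟩
    exact this
  have hSe : clos [q, a, d, f] = S := by
    refine le_antisymm (clos_le.2 (by simp [qS, aS, dS, fS])) fun s hs => ?_
    have : ∀ s ∈ S, φ s ∈ K.map φ → s ∈ clos [q, a, d, f] := fun s hs hs' => by
      obtain ⟨y, hy, e⟩ := h3 s hs hs'
      have h4 : y⁻¹ * s ∈ zpowers q := hq.ge ⟨S.mul_mem (S.inv_mem (hTK hy).1) hs, by simp [e]⟩
      simpa using mul_mem (clos_le.2 (by simp [mem_clos]) hy : y ∈ clos [q, a, d, f])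
        (zpowers_le.2 (mem_clos (by simp)) h4)
    rcases hcov s with e | e
    · exact this s hs e
    · simpa using mul_mem (this _ (mul_mem hs (inv_mem fS)) (by simpa using e))
        (mem_clos (by simp) : f ∈ clos [q, a, d, f])
  have hc : centralizer ({t} : Set H) = ⊤ := eq_top_iff.2 fun g _ => mem_cen'.2 (htc g)
  have a2 := pow_mem aS 2
  have a4 := pow_mem aS 4
  have ad := mul_mem aS dS
  obtain ⟨σ', hσ'⟩ := lift hS hO hOK hK (Y := clos [φ (a ^ 2), φ (a * d), φ (f * a ^ 2)])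
    (clos_le.2 (by simp only [List.mem_cons, List.not_mem_nil, or_false, forall_eq_or_imp, forall_eq]
                   exact ⟨mem_map_of_mem _ a2, mem_map_of_mem _ ad, mem_map_of_mem _ (mul_mem fS a2)⟩))
    hσ (conj_clos_mem (by
      simp only [List.mem_cons, List.not_mem_nil, or_false, forall_eq_or_imp, forall_eq, map_mul,
        map_pow, h.σi, h.σj]
      refine ⟨mem_clos (by simp), mul_mem (mem_clos (by simp)) (mem_clos (by simp)), ?_⟩
      cases κ
      · rw [h.f0 rfl, one_mul, h.σi]; exact mem_clos (by simp)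
      · rw [h.σc rfl]; exact mem_clos (by simp)))
  obtain ⟨ρ', hρ'⟩ := lift hS hO hOK hK (Y := clos [φ (a ^ 4), φ d, φ f])
    (clos_le.2 (by simp only [List.mem_cons, List.not_mem_nil, or_false, forall_eq_or_imp, forall_eq]
                   exact ⟨mem_map_of_mem _ a4, mem_map_of_mem _ dS, mem_map_of_mem _ fS⟩))
    hρ (conj_clos_mem (by
      simp only [List.mem_cons, List.not_mem_nil, or_false, forall_eq_or_imp, forall_eq, map_pow,
        h.ρz, h.ρd, h.ρf]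
      exact ⟨mem_clos (by simp), mul_mem (mem_clos (by simp)) (mem_clos (by simp)), mem_clos (by simp)⟩))
  have cS : ∀ {x y}, x ∈ S → y ∈ S → x * y * x⁻¹ ∈ S := fun hx hy => mul_mem (mul_mem hx hy) (inv_mem hx)
  have aK2 := pow_mem aK 2
  have aK4 := pow_mem aK 4
  have adK := mul_mem aK dK
  refine ⟨q, a, d, f, σ', ρ',
    { a8 := hin (pow_mem aS 8) (one_mem _) (pow_mem aK 8) (one_mem _) (by simp [h.a8])
      a4 := fun e => h.a4 (by rw [← map_pow, e, map_one])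
      d2 := hin (mul_mem dS dS) (one_mem _) (mul_mem dK dK) (one_mem _) (by simp [h.d2])
      da := hin (cS dS aS) (pow_mem aS 3) (hKn.conj_mem _ aK _) (pow_mem aK 3) (by simp [h.da])
      fd := hin (cS fS dS) dS (hKn.conj_mem _ dK _) dK (by simp [h.fd])
      f0 := f0
      fa := fun e => hin (cS fS aS) (pow_mem aS 5) (hKn.conj_mem _ aK _) (pow_mem aK 5)
        (by simp [h.fa e])
      σi := hσ' _ a2 (mem_clos (by simp)) _ ad (mul_mem aK2 (inv_mem adK)) (by simp [h.σi])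
      σj := hσ' _ ad (mem_clos (by simp)) _ (mul_mem a2 ad)
        (mul_mem adK (inv_mem (mul_mem aK2 adK))) (by simp only [map_mul, map_pow, h.σj])
      σc := fun e => hσ' _ (mul_mem fS a2) (mem_clos (by simp)) _ (mul_mem fS a2) (by simp)
        (by simp only [map_mul, map_pow, h.σc e])
      ρz := hρ' _ a4 (mem_clos (by simp)) _ dS (mul_mem aK4 (inv_mem dK)) (by simp [h.ρz])
      ρd := hρ' _ dS (mem_clos (by simp)) _ (mul_mem dS a4)
        (mul_mem dK (inv_mem (mul_mem dK aK4))) (by simp [h.ρd])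
      ρf := hρ' _ fS (mem_clos (by simp)) _ fS (by simp) h.ρf
      t2 := ht
      tq := hq ▸ ⟨?_, hφt⟩
      qa := hin (cS qS aS) aS (hKn.conj_mem _ aK _) aK (by simp [q1])
      qd := hin (cS qS dS) dS (hKn.conj_mem _ dK _) dK (by simp [q1])
      fq := hq ▸ ⟨cS fS qS, by simp [q1]⟩
      f2 := hq ▸ ⟨mul_mem fS fS, by simpa using f2⟩
      qT := fun x hx hx' => hin (hTK hx').1 (one_mem _) (hTK hx').2 (one_mem _)
        ((hq.le hx).2.trans φ.map_one.symm)
      syl := by rwa [hSe, hc]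
      σq := hσ' _ qS (q1 ▸ one_mem _) _ qS (by simp) (by simp [q1])
      ρq := hρ' _ qS (q1 ▸ one_mem _) _ qS (by simp) (by simp [q1])
      Kn := fun x _ k hk => hKn.conj_mem k hk x
      Kc := fun x _ => ?_
      KS := fun x hx => ⟨fun hx' => ?_, fun hx' => (hTK hx').2⟩ }⟩
  · obtain ⟨g, -, hg⟩ := exists_conj_mem_syl hS (mem_top t) (k := 1)
      (by rw [pow_one, ← ht, pow_orderOf_eq_one])
    rwa [htc] at hg
  · have : ∀ x, φ x ∈ K.map φ → ∃ s ∈ S, x * s⁻¹ ∈ K := by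
      rintro x ⟨k, hk, e⟩
      obtain ⟨s, hs, o, ho, e'⟩ := ker_eq hS hO (c := k⁻¹ * x) (by simp [e])
      refine ⟨s, hs.1, ?_⟩
      rw [show x = k * (s * o) by rw [← e', mul_inv_cancel_left], mul_assoc]
      exact mul_mem hk (hKn.conj_mem _ (hOK ho) s)
    rw [hSe]
    rcases hcov x with e | e
    · exact this x e
    · obtain ⟨s, hs, e'⟩ := this (x * f⁻¹) (by simpa using e)
      exact ⟨s * f, mul_mem hs fS, by simpa [mul_assoc] using e'⟩
  · rw [hSe] at hx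
    obtain ⟨y, hy, e⟩ := h3 x hx (mem_map_of_mem _ hx')
    rwa [← hin (hTK hy).1 hx (hTK hy).2 hx' e]

end Lift

theorem pre_map [Finite H] {κ : Bool} {t q a d f σ ρ : H} {K : Subgroup H} (h : Pre κ t q a d f σ ρ K)
    (ι : H →* A) (hι : Function.Injective ι)
    (hr : (centralizer ({t} : Set H)).map ι = centralizer {ι t}) :
    Pre κ (ι t) (ι q) (ι a) (ι d) (ι f) (ι σ) (ι ρ) (K.map ι) := by
  have hz : ∀ {x}, x ∈ zpowers q → ι x ∈ zpowers (ι q) := fun hx =>
    ι.map_zpowers q ▸ mem_map_of_mem _ hx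
  have e1 : clos [ι a, ι d] = (clos [a, d]).map ι := (map_clos ι [a, d]).symm
  have e2 : clos [ι q, ι a, ι d, ι f] = (clos [q, a, d, f]).map ι := (map_clos ι [q, a, d, f]).symm
  refine
    { a8 := by simpa using congrArg ι h.a8
      a4 := fun e => h.a4 (hι (by simpa using e))
      d2 := by simpa using congrArg ι h.d2
      da := by simpa using congrArg ι h.da
      fd := by simpa using congrArg ι h.fd
      f0 := fun e => by simpa using congrArg ι (h.f0 e)
      fa := fun e => by simpa using congrArg ι (h.fa e)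
      σi := by simpa using congrArg ι h.σi
      σj := by simpa only [map_mul, map_pow, map_inv] using congrArg ι h.σj
      σc := fun e => by simpa only [map_mul, map_pow, map_inv] using congrArg ι (h.σc e)
      ρz := by simpa using congrArg ι h.ρz
      ρd := by simpa using congrArg ι h.ρd
      ρf := by simpa using congrArg ι h.ρf
      t2 := (orderOf_injective ι hι t).trans h.t2
      tq := hz h.tq
      qa := by simpa using congrArg ι h.qa
      qd := by simpa using congrArg ι h.qd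
      fq := by simpa using hz h.fq
      f2 := by simpa using hz h.f2
      qT := ?_
      syl := by rw [e2, ← hr]; exact sylIn_map h.syl
      σq := by simpa using congrArg ι h.σq
      ρq := by simpa using congrArg ι h.ρq
      Kn := ?_
      Kc := ?_
      KS := ?_ }
  · rw [e1, ← ι.map_zpowers]
    rintro _ ⟨x, hx, rfl⟩ hx'
    rw [h.qT x hx ((mem_map_iff_mem hι).1 hx'), map_one]
  · rw [← hr]
    rintro _ ⟨x, hx, rfl⟩ _ ⟨k, hk, rfl⟩
    exact ⟨_, h.Kn x hx k hk, by simp⟩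
  · rw [← hr, e2]
    rintro _ ⟨x, hx, rfl⟩
    obtain ⟨s, hs, e⟩ := h.Kc x hx
    exact ⟨_, mem_map_of_mem _ hs, _, e, by simp⟩
  · rw [e1, e2]
    rintro _ ⟨x, hx, rfl⟩
    rw [mem_map_iff_mem hι, mem_map_iff_mem hι, h.KS x hx]

end Cfsg.Agent.L33.FrC
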