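import Mathlib
import Cfsg.Agent.L33.Defs
import Cfsg.Agent.L33.FrM
import Cfsg.Agent.L33.FrC1
import Cfsg.Agent.Fus.FactorSat

/-!
Lifting the letters.
-/

set_option autoImplicit false

namespace Cfsg.Agent.L33

open Cfsg.Agent.Rec Cfsg.Agent.Inv.Fz Subgroup

variable {G : Type*} [Group G]

theorem Hyp.exists_act [Finite G] {t : G} {L : Subgroup G} {π : L →* L3} (h : Hyp t L π) :
    ∃ φ : centralizer ({t} : Set G) →* MulAut L3, ∀ (g : centralizer ({t} : Set G)) (l l' : L),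
      (l' : G) = g * l * g⁻¹ → φ g (π l) = π l' := by
  obtain ⟨hc, -, hs, -⟩ := model
  have hn : centralizer ({t} : Set G) ≤ normalizer (L : Set G) :=
    fun g hg => mem_normalizer_fintype (h.nor g hg)
  let ι := L.normalizerMonoidHom.comp (inclusion hn)
  obtain ⟨ρ, hρ⟩ := Fus.exists_autPush π h.surj ι.range (by
    rintro α - x hx
    have hψ : Function.Surjective (π.comp α.toMonoidHom) := h.surj.comp α.surjective
    rcases hs.eq_bot_or_eq_top_of_normal _ ((inferInstance : π.ker.Normal).map _ hψ) with e | e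
    · exact mem_bot.1 (e ▸ mem_map_of_mem (π.comp α.toMonoidHom) hx)
    · have := h.odd.of_dvd_nat (card_map_dvd π.ker (π.comp α.toMonoidHom))
      rw [e, card_top, hc] at this
      exact absurd this (by decide))
  exact ⟨ρ.comp ι.rangeRestrict, fun g l l' e => (hρ _ l).trans (congrArg π (Subtype.ext e.symm))⟩

theorem Hyp.pre [Finite G] {t : G} {L : Subgroup G} {π : L →* L3} (h : Hyp t L π) :
    ∃ (κ : Bool) (q a d f σ ρ : G) (K : Subgroup G), Pre κ t q a d f σ ρ K := by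
  obtain ⟨hc, hA, hs, a, d, σ, ρ, f, f2, hL⟩ := model
  obtain ⟨φ, hφ⟩ := h.exists_act
  have : Finite (MulAut L3) := Nat.finite_of_card_ne_zero (by rw [hA]; decide)
  have hj : Function.Injective (MulAut.conj : L3 →* MulAut L3) := by
    refine (MonoidHom.ker_eq_bot_iff _).1 ((hs.eq_bot_or_eq_top_of_normal _ inferInstance).resolve_right
      fun e => hL.a4 ?_)
    rw [show MulAut.conj a = 1 from e.ge (mem_top a), one_pow]
  let H := centralizer ({t} : Set G)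
  set I := (MulAut.conj : L3 →* MulAut L3).range with hI
  have hIc : Nat.card I = 5616 := (Nat.card_congr (MonoidHom.ofInjective hj).toEquiv).symm.trans hc
  have hI2 : I.index = 2 := by
    have := I.card_mul_index
    rw [hIc, hA] at this
    omega
  have hT : IsSylIn 2 (clos [MulAut.conj a, MulAut.conj d]) I :=
    FrC.syl_T hL ⟨a, rfl⟩ ⟨d, rfl⟩ (by rw [hIc]; decide)
  have hfI : f ∉ I := fun e => FrC.conj_ne hL ((hT.eq_of_le (FrC.pg_fT hL f2)
    (sup_le (zpowers_le.2 e) hT.le) le_sup_right).le (mem_sup_left (mem_zpowers f))) (hL.fa rfl)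
  have hcov : ∀ x, x ∈ I ∨ x * f⁻¹ ∈ I := fun x => (em _).imp_right fun e =>
    (mul_mem_iff_of_index_two hI2).2 (iff_of_false e fun e' => hfI (inv_mem_iff.1 e'))
  have hφL : ∀ l : L, φ ⟨l, h.le l.2⟩ = MulAut.conj (π l) := fun l => MulEquiv.ext fun x => by
    obtain ⟨x, rfl⟩ := h.surj x
    rw [hφ _ x (l * x * l⁻¹) rfl]
    simp
  let t' : H := ⟨t, mem_cen.2 rfl⟩
  have ht : orderOf t' = 2 := (orderOf_coe t').symm.trans h.t2
  have htc : ∀ g : H, g * t' * g⁻¹ = t' := fun g => Subtype.ext (mem_cen'.1 g.2)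
  have hφt : φ t' = 1 := MulEquiv.ext fun x => by
    obtain ⟨x, rfl⟩ := h.surj x
    exact hφ t' x x (eq_mul_inv_iff_mul_eq.2 (mem_cen.1 (h.le x.2)))
  have cyc : ∀ P : Subgroup H, P ≤ φ.ker → IsPGroup 2 P → IsCyclic P := fun P hP hp => by
    have := h.cyc (P.map H.subtype) (map_subtype_le _) (hp.map _) (by
      rintro _ ⟨g, hg, rfl⟩ l l' e
      rw [← hφ g l l' e, show φ g = 1 from hP hg]
      rfl)
    exact isCyclic_of_surjective _ (P.equivMapOfInjective _ H.subtype_injective).symm.surjective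
  obtain ⟨O, hO⟩ := FrC.exists_odd φ.ker
    (even_iff_two_dvd.2 (ht ▸ φ.ker.orderOf_dvd_natCard hφt)) cyc
  have : O.Normal := ⟨fun x hx g => (hO _).2 ⟨φ.normal_ker.conj_mem _ ((hO x).1 hx).1 g, by
    rw [← MulAut.conj_apply, MulEquiv.orderOf_eq]; exact ((hO x).1 hx).2⟩⟩
  have : (L.subgroupOf H).Normal := ⟨fun x hx g => h.nor g g.2 x hx⟩
  have hK : ∀ x ∈ L.subgroupOf H ⊔ O, φ x = 1 → Odd (orderOf x) := fun x hx e => by
    obtain ⟨l, hl, o, ho, rfl⟩ := (mem_sup_iff_of_le_normalizer le_normalizer_of_normal).1 hx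
    rw [map_mul, show φ o = 1 from ((hO o).1 ho).1, mul_one] at e
    refine ((hO _).1 (mul_mem ((hO l).2 ⟨e, ?_⟩) ho)).2
    have h1 : (⟨l, hl⟩ : L) ∈ π.ker := hj (((hφL ⟨l, hl⟩).symm.trans e).trans (map_one _).symm)
    have := h.odd.of_dvd_nat (π.ker.orderOf_dvd_natCard h1)
    rw [← orderOf_coe] at this ⊢
    exact this
  have hKI : (L.subgroupOf H ⊔ O).map φ = I := by
    refine le_antisymm (map_le_iff_le_comap.2 (sup_le (fun l hl => ⟨_, (hφL ⟨l, hl⟩).symm⟩)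
      fun o ho => ?_)) ?_
    · exact mem_comap.2 ((show φ o = 1 from ((hO o).1 ho).1) ▸ one_mem _)
    · rintro _ ⟨x, rfl⟩
      obtain ⟨l, rfl⟩ := h.surj x
      exact ⟨⟨l, h.le l.2⟩, mem_sup_left l.2, hφL l⟩
  obtain ⟨κ, f', hL', f2', hf', hcov'⟩ : ∃ κ f', Let κ (MulAut.conj a) (MulAut.conj d) f'
      (MulAut.conj σ) (MulAut.conj ρ) ∧ f' * f' = 1 ∧ f' ∈ φ.range ∧
        ∀ x, φ x ∈ I ∨ φ x * f'⁻¹ ∈ I := by
    by_cases hf : f ∈ φ.range
    · exact ⟨true, f, hL, f2, hf, fun x => hcov _⟩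
    refine ⟨false, 1, ⟨hL.a8, hL.a4, hL.d2, hL.da, by simp, fun _ => rfl, by simp, hL.σi, hL.σj,
      by simp, hL.ρz, hL.ρd, by simp⟩, mul_one 1, one_mem _, fun x => Or.inl ?_⟩
    refine (hcov _).resolve_right fun e => hf ?_
    have h1 : I ≤ φ.range := hKI ▸ map_le_range φ _
    simpa using mul_mem (inv_mem (h1 e)) (⟨x, rfl⟩ : φ x ∈ φ.range)
  obtain ⟨q, a', d', f', σ', ρ', hP⟩ := FrC.pre_of (K := L.subgroupOf H ⊔ O) hO le_sup_right hK cyc ht
    htc hφt hL' f2' hf' (hKI.symm ▸ hcov') (hKI.symm ▸ hT) (hKI.symm ▸ ⟨σ, rfl⟩) (hKI.symm ▸ ⟨ρ, rfl⟩)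
  refine ⟨κ, _, _, _, _, _, _, _, FrC.pre_map hP H.subtype H.subtype_injective ?_⟩
  rw [show centralizer ({t'} : Set H) = ⊤ from eq_top_iff.2 fun g _ => mem_cen'.2 (htc g),
    ← MonoidHom.range_eq_map, range_subtype]
  rfl

end Cfsg.Agent.L33
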